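import Mathlib

/-!
# Primitive groups containing all products of two transpositions of a matching

`R` is a primitive permutation group of degree at least 8 and `s` an involution with at most one
fixed point such that `(y, s y)(z, s z) ∈ R` for all `y`, `z` moved by `s`. Then `R` contains a
3-cycle, or the degree is 8, `s ∈ R` has no fixed point and `s` commutes with its conjugates.
-/

set_option autoImplicit false
set_option linter.style.haveILetI false

namespace Cfsg.Agent.H247

open Equiv Equiv.Perm Subgroup
open scoped Pointwise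

variable {Y : Type*} [Fintype Y] [DecidableEq Y]

theorem exists_not_mem_finset (F : Finset Y) (h : F.card < Fintype.card Y) : ∃ y, y ∉ F := by
  by_contra hc
  push Not at hc
  have : F = Finset.univ := Finset.eq_univ_iff_forall.2 hc
  rw [this, Finset.card_univ] at h
  exact lt_irrefl _ h

theorem three_cycle_of_matching (R : Subgroup (Perm Y)) (hprim : MulAction.IsPreprimitive R Y)
    (s : Perm Y) (hs : ∀ y, s (s y) = y) (hfix : ∀ y z, s y = y → s z = z → y = z)
    (hcl : ∀ y z, s y ≠ y → s z ≠ z → swap y (s y) * swap z (s z) ∈ R)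
    (h8 : 8 ≤ Fintype.card Y) :
    (∃ g ∈ R, g.IsThreeCycle) ∨
      (Fintype.card Y = 8 ∧ s ∈ R ∧ (∀ y, s y ≠ y) ∧
        ∀ g ∈ R, s * (g * s * g⁻¹) = (g * s * g⁻¹) * s) := by
  by_contra hcon
  push Not at hcon
  obtain ⟨no3, hcon⟩ := hcon
  -- uniqueness in a class
  have uniq : ∀ y a b : Y, y ≠ a → y ≠ b → swap y a * swap y b ∈ R → a = b := by
    intro y a b hya hyb h
    by_contra hab
    exact no3 _ h (isThreeCycle_swap_mul_swap_same hya hyb hab)
  have trans : ∀ y y' z z' w w' : Y, swap y y' * swap z z' ∈ R → swap z z' * swap w w' ∈ R →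
      swap y y' * swap w w' ∈ R := by
    intro y y' z z' w w' h1 h2
    have := R.mul_mem h1 h2
    rwa [mul_assoc, ← mul_assoc (swap z z'), swap_mul_self, one_mul] at this
  have symm : ∀ y y' z z' : Y, swap y y' * swap z z' ∈ R → swap z z' * swap y y' ∈ R := by
    intro y y' z z' h
    have := R.inv_mem h
    simpa using this
  have conj : ∀ g ∈ R, ∀ y y' z z' : Y, swap y y' * swap z z' ∈ R →
      swap (g y) (g y') * swap (g z) (g z') ∈ R := by
    intro g hg y y' z z' h
    rw [swap_apply_apply, swap_apply_apply]
    have := R.mul_mem (R.mul_mem hg h) (R.inv_mem hg)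
    convert this using 1
    group
  -- the conjugates of `s`
  have hs1 : ∀ g ∈ R, ∀ y z, (g * s * g⁻¹) y ≠ y → (g * s * g⁻¹) z ≠ z →
      swap y ((g * s * g⁻¹) y) * swap z ((g * s * g⁻¹) z) ∈ R := by
    intro g hg y z hy hz
    have := conj g hg _ _ _ _ (hcl (g⁻¹ y) (g⁻¹ z) (by
      intro h; apply hy; show g (s (g⁻¹ y)) = y
      rw [h]; exact g.apply_symm_apply y) (by
      intro h; apply hz; show g (s (g⁻¹ z)) = z
      rw [h]; exact g.apply_symm_apply z))
    simpa using this
  have hs1inv : ∀ (g : Perm Y) (y : Y), (g * s * g⁻¹) ((g * s * g⁻¹) y) = y := by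
    intro g y; simp [hs]
  -- agreement
  have agree : ∀ g ∈ R, ∀ y z, s y ≠ y → s z ≠ z → (g * s * g⁻¹) z ≠ z →
      s y = (g * s * g⁻¹) y → s z = (g * s * g⁻¹) z := by
    intro g hg y z hy hz hz1 hyy
    apply uniq z _ _ hz.symm hz1.symm
    apply trans z (s z) y (s y) z _ (hcl z y hz hy)
    have := hs1 g hg y z (by rw [← hyy]; exact hy) hz1
    rwa [← hyy] at this
  by_cases hf : ∃ f, s f = f
  · -- a fixed point
    obtain ⟨f, hf⟩ := hf
    have hmv : ∀ y, y ≠ f → s y ≠ y := fun y hy h => hy (hfix y f h hf)
    haveI := hprim.toIsPretransitive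
    obtain ⟨f1, hf1⟩ := exists_not_mem_finset ({f} : Finset Y) (by simp; omega)
    rw [Finset.mem_singleton] at hf1
    obtain ⟨⟨g, hg⟩, hgf⟩ := MulAction.exists_smul_eq R f f1
    have hgf : g f = f1 := hgf
    set s1 := g * s * g⁻¹ with hs1def
    have hs1f1 : s1 f1 = f1 := by
      rw [hs1def, ← hgf]; simp [hf]
    have hmv1 : ∀ y, y ≠ f1 → s1 y ≠ y := by
      intro y hy h
      apply hy
      rw [← hgf]
      have : s (g⁻¹ y) = g⁻¹ y := by
        rw [hs1def] at h
        simp only [Perm.mul_apply] at h
        rw [Perm.eq_inv_iff_eq]; exact h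
      have := hfix _ _ this hf
      rw [← this]; simp
    have hbf : s1 f ≠ f := hmv1 f (Ne.symm hf1)
    set b := s1 f with hb
    obtain ⟨y, hy⟩ := exists_not_mem_finset ({f, b, s b, f1, s f1} : Finset Y)
      ((Finset.card_le_five).trans_lt (by omega))
    simp only [Finset.mem_insert, Finset.mem_singleton, not_or] at hy
    obtain ⟨hy1, hy2, hy3, hy4, hy5⟩ := hy
    have hsy4 : s y ≠ f1 := fun h => hy5 (by rw [← h, hs])
    -- the conjugation argument
    have key : ∀ z, z ≠ f → z ≠ b → z ≠ s b → z ≠ y → z ≠ s y → s1 y = s y ∨ s1 y = z ∨ s1 y = s z := by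
      intro z hz1 hz2 hz3 hz4 hz5
      by_contra hcc
      push Not at hcc
      obtain ⟨hc1, hc2, hc3⟩ := hcc
      have ht : swap y (s y) * swap z (s z) ∈ R := hcl y z (hmv y hy1) (hmv z hz1)
      have h1 := hs1 g hg f y hbf (hmv1 y hy4)
      have h2 := conj _ ht _ _ _ _ h1
      have hsyf : s y ≠ f := by
        intro h; apply hy1; rw [← hs y, h, hf]
      have hszf : s z ≠ f := by
        intro h; apply hz1; rw [← hs z, h, hf]
      have e1 : (swap y (s y) * swap z (s z)) f = f := by
        rw [Perm.mul_apply, swap_apply_of_ne_of_ne (Ne.symm hz1) hszf.symm,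
          swap_apply_of_ne_of_ne (Ne.symm hy1) hsyf.symm]
      have hsyb : s y ≠ b := fun h => hy3 (by rw [← h, hs])
      have hszb : s z ≠ b := fun h => hz3 (by rw [← h, hs])
      have e2 : (swap y (s y) * swap z (s z)) b = b := by
        rw [Perm.mul_apply, swap_apply_of_ne_of_ne hz2.symm hszb.symm,
          swap_apply_of_ne_of_ne (Ne.symm hy2) hsyb.symm]
      have hszy : s z ≠ y := fun h => hz5 (by rw [← h, hs])
      have e3 : (swap y (s y) * swap z (s z)) y = s y := by
        rw [Perm.mul_apply, swap_apply_of_ne_of_ne hz4.symm hszy.symm, swap_apply_left]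
      have e4 : (swap y (s y) * swap z (s z)) (s1 y) = s1 y := by
        rw [Perm.mul_apply, swap_apply_of_ne_of_ne hc2 hc3, swap_apply_of_ne_of_ne (hmv1 y hy4) hc1]
      rw [← hs1def, ← hb, e1, e2, e3, e4] at h2
      have h3 := hs1 g hg f (s y) hbf (hmv1 _ hsy4)
      rw [← hs1def, ← hb] at h3
      have h4 := trans _ _ _ _ _ _ (symm _ _ _ _ h2) h3
      have h5 := uniq _ _ _ (Ne.symm hc1) (hmv1 _ hsy4).symm h4
      have h6 := s1.injective h5
      exact hmv y hy1 h6.symm
    obtain ⟨z, hz⟩ := exists_not_mem_finset ({f, b, s b, y, s y} : Finset Y)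
      ((Finset.card_le_five).trans_lt (by omega))
    simp only [Finset.mem_insert, Finset.mem_singleton, not_or] at hz
    obtain ⟨hz1, hz2, hz3, hz4, hz5⟩ := hz
    obtain ⟨w, hw⟩ := exists_not_mem_finset (insert z (insert (s z) ({f, b, s b, y, s y} : Finset Y)))
      (by
        have h1 := Finset.card_insert_le z (insert (s z) ({f, b, s b, y, s y} : Finset Y))
        have h2 := Finset.card_insert_le (s z) ({f, b, s b, y, s y} : Finset Y)
        have h3 : ({f, b, s b, y, s y} : Finset Y).card ≤ 5 := Finset.card_le_five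
        omega)
    simp only [Finset.mem_insert, Finset.mem_singleton, not_or] at hw
    obtain ⟨hw8, hw9, hw1, hw2, hw3, hw4, hw5⟩ := hw
    have hk : s1 y = s y := by
      rcases key z hz1 hz2 hz3 hz4 hz5 with h | h | h
      · exact h
      · rcases key w hw1 hw2 hw3 hw4 hw5 with h' | h' | h'
        · exact h'
        · exact absurd (h'.symm.trans h) hw8
        · exfalso; apply hw9
          rw [← h, h', hs]
      · rcases key w hw1 hw2 hw3 hw4 hw5 with h' | h' | h'
        · exact h'
        · exact absurd (h'.symm.trans h) hw9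
        · exfalso; apply hw8
          exact s.injective (h'.symm.trans h)
    -- now `s` and `s1` agree on all points moved by both
    have hag : ∀ z, z ≠ f → z ≠ f1 → s z = s1 z := fun z hz hz' =>
      agree g hg y z (hmv y hy1) (hmv z hz) (hmv1 z hz') hk.symm
    have h1 : s f1 ≠ f := by
      intro h; apply hf1; rw [← hs f1, h, hf]
    have h2 : s f1 ≠ f1 := hmv f1 hf1
    have h3 := hag (s f1) h1 h2
    rw [hs] at h3
    apply h2
    apply s1.injective
    rw [← h3, hs1f1]
  · -- no fixed point
    push Not at hf
    by_cases hcomm : ∀ g ∈ R, g * s * g⁻¹ = s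
    · -- blocks of size two
      exfalso
      obtain ⟨y, -⟩ := exists_not_mem_finset (∅ : Finset Y) (by simp; omega)
      have hblock : MulAction.IsBlock R ({y, s y} : Set Y) := by
        have himg : ∀ g : R, g • ({y, s y} : Set Y) = {g.1 y, s (g.1 y)} := by
          rintro ⟨g, hg⟩
          rw [← Set.image_smul, Set.image_pair]
          have h1 : g (s y) = s (g y) := by
            have := congrArg (fun σ : Perm Y => σ (g y)) (hcomm g hg)
            simpa using this
          show ({g y, g (s y)} : Set Y) = {g y, s (g y)}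
          rw [h1]
        intro g₁ g₂ hne
        rw [himg, himg] at hne ⊢
        rw [Set.disjoint_left]
        intro x hx hx'
        apply hne
        simp only [Set.mem_insert_iff, Set.mem_singleton_iff] at hx hx'
        rcases hx with rfl | hx <;> rcases hx' with hx' | hx'
        · rw [hx']
        · rw [hx', hs, Set.pair_comm]
        · rw [← hx', hx, hs, Set.pair_comm]
        · rw [s.injective (hx.symm.trans hx')]
      have := hprim.isTrivialBlock_of_isBlock hblock
      rcases this with h | h
      · exact hf y (h (by simp) (by simp))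
      · obtain ⟨z, hz⟩ := exists_not_mem_finset ({y, s y} : Finset Y)
          (Finset.card_le_two.trans_lt (by omega))
        apply hz
        have : z ∈ ({y, s y} : Set Y) := by rw [h]; trivial
        simpa using this
    · push Not at hcomm
      obtain ⟨g0, hg0, hne0⟩ := hcomm
      have key : ∀ g ∈ R, g * s * g⁻¹ ≠ s → ∀ a y z, y ≠ a → y ≠ s a → y ≠ (g * s * g⁻¹) a →
          y ≠ s ((g * s * g⁻¹) a) → z ≠ a → z ≠ s a → z ≠ (g * s * g⁻¹) a →
          z ≠ s ((g * s * g⁻¹) a) → z ≠ y → z ≠ s y →
          ((g * s * g⁻¹) y = z ∨ (g * s * g⁻¹) y = s z) ∧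
            s ((g * s * g⁻¹) y) = (g * s * g⁻¹) (s y) := by
        intro g hg hne a y z hya hya' hyb hyb' hza hza' hzb hzb' hzy hzy'
        set s1 := g * s * g⁻¹ with hs1def
        have hmv1 : ∀ y, s1 y ≠ y := by
          intro y h
          apply hf (g⁻¹ y)
          rw [hs1def] at h
          simp only [Perm.mul_apply] at h
          rw [Perm.eq_inv_iff_eq]; exact h
        have hdiff : ∀ z, s z ≠ s1 z := by
          intro z hz
          apply hne
          ext w
          exact (agree g hg z w (hf z) (hf w) (hmv1 w) hz).symm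
        set b := s1 a with hb
        have ht : swap y (s y) * swap z (s z) ∈ R := hcl y z (hf y) (hf z)
        have h1 := hs1 g hg a y (hmv1 a) (hmv1 y)
        have h2 := conj _ ht _ _ _ _ h1
        have hsya : s y ≠ a := fun h => hya' (by rw [← h, hs])
        have hsza : s z ≠ a := fun h => hza' (by rw [← h, hs])
        have hsyb : s y ≠ b := fun h => hyb' (by rw [← h, hs])
        have hszb : s z ≠ b := fun h => hzb' (by rw [← h, hs])
        have hszy : s z ≠ y := fun h => hzy' (by rw [← h, hs])
        have e1 : (swap y (s y) * swap z (s z)) a = a := by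
          rw [Perm.mul_apply, swap_apply_of_ne_of_ne hza.symm hsza.symm,
            swap_apply_of_ne_of_ne hya.symm hsya.symm]
        have e2 : (swap y (s y) * swap z (s z)) b = b := by
          rw [Perm.mul_apply, swap_apply_of_ne_of_ne hzb.symm hszb.symm,
            swap_apply_of_ne_of_ne hyb.symm hsyb.symm]
        have e3 : (swap y (s y) * swap z (s z)) y = s y := by
          rw [Perm.mul_apply, swap_apply_of_ne_of_ne hzy.symm hszy.symm, swap_apply_left]
        rw [← hs1def, ← hb, e1, e2, e3] at h2
        have h3 := hs1 g hg a (s y) (hmv1 a) (hmv1 _)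
        rw [← hs1def, ← hb] at h3
        have h4 := trans _ _ _ _ _ _ (symm _ _ _ _ h2) h3
        have hyt : s y ≠ (swap y (s y) * swap z (s z)) (s1 y) := by
          intro h
          exact hmv1 y ((swap y (s y) * swap z (s z)).injective (e3.trans h)).symm
        have h5 := uniq _ _ _ hyt (hmv1 _).symm h4
        have h6 : s1 y = z ∨ s1 y = s z := by
          by_contra hcc
          push Not at hcc
          rw [Perm.mul_apply, swap_apply_of_ne_of_ne hcc.1 hcc.2,
            swap_apply_of_ne_of_ne (hmv1 y) (hdiff y).symm] at h5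
          exact hf y (s1.injective h5).symm
        refine ⟨h6, ?_⟩
        rw [← h5]
        rcases h6 with h | h
        · rw [h, Perm.mul_apply, swap_apply_left, swap_apply_of_ne_of_ne hszy]
          intro h'; exact hzy (s.injective h')
        · rw [h, hs, Perm.mul_apply, swap_apply_right, swap_apply_of_ne_of_ne hzy hzy']
      rcases h8.eq_or_lt with h8' | h8'
      · -- degree 8
        have hsR : s ∈ R := by
          obtain ⟨y, -⟩ := exists_not_mem_finset (∅ : Finset Y) (by simp; omega)
          obtain ⟨z, hz⟩ := exists_not_mem_finset ({y, s y} : Finset Y)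
            (Finset.card_le_two.trans_lt (by omega))
          simp only [Finset.mem_insert, Finset.mem_singleton, not_or] at hz
          obtain ⟨w, hw⟩ := exists_not_mem_finset ({y, s y, z, s z} : Finset Y)
            (Finset.card_le_four.trans_lt (by omega))
          simp only [Finset.mem_insert, Finset.mem_singleton, not_or] at hw
          obtain ⟨u, hu⟩ := exists_not_mem_finset ({y, s y, z, s z, w, s w} : Finset Y)
            (Finset.card_le_six.trans_lt (by omega))
          simp only [Finset.mem_insert, Finset.mem_singleton, not_or] at hu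
          have f4 : ∀ a b : Y, b ≠ a → b ≠ s a → a ≠ b ∧ a ≠ s b ∧ s a ≠ b ∧ s a ≠ s b :=
            fun a b h1 h2 => ⟨h1.symm, fun h => h2 (by rw [h, hs]), h2.symm,
              fun h => h1 (s.injective h).symm⟩
          obtain ⟨a1, a2, a3, a4⟩ := f4 y z hz.1 hz.2
          obtain ⟨b1, b2, b3, b4⟩ := f4 y w hw.1 hw.2.1
          obtain ⟨c1, c2, c3, c4⟩ := f4 z w hw.2.2.1 hw.2.2.2
          obtain ⟨d1, d2, d3, d4⟩ := f4 y u hu.1 hu.2.1
          obtain ⟨e1, e2, e3, e4⟩ := f4 z u hu.2.2.1 hu.2.2.2.1
          obtain ⟨g1, g2, g3, g4⟩ := f4 w u hu.2.2.2.2.1 hu.2.2.2.2.2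
          have hnd : [y, s y, z, s z, w, s w, u, s u].Nodup := by
            simp only [List.nodup_cons, List.mem_cons, List.not_mem_nil, or_false, not_or,
              not_false_eq_true, List.nodup_nil, and_true]
            exact ⟨⟨(hf y).symm, a1, a2, b1, b2, d1, d2⟩, ⟨a3, a4, b3, b4, d3, d4⟩,
              ⟨(hf z).symm, c1, c2, e1, e2⟩, ⟨c3, c4, e3, e4⟩, ⟨(hf w).symm, g1, g2⟩, ⟨g3, g4⟩,
              (hf u).symm⟩
          have hall : ∀ x, x = y ∨ x = s y ∨ x = z ∨ x = s z ∨ x = w ∨ x = s w ∨ x = u ∨ x = s u := by
            intro x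
            have huniv : [y, s y, z, s z, w, s w, u, s u].toFinset = Finset.univ := by
              apply Finset.eq_univ_of_card
              rw [List.toFinset_card_of_nodup hnd]
              exact h8'
            have : x ∈ [y, s y, z, s z, w, s w, u, s u].toFinset := by
              rw [huniv]; exact Finset.mem_univ _
            simpa using this
          have hprod : s = (swap y (s y) * swap z (s z)) * (swap w (s w) * swap u (s u)) := by
            ext x
            rw [Perm.mul_apply, Perm.mul_apply, Perm.mul_apply]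
            rcases hall x with rfl | rfl | rfl | rfl | rfl | rfl | rfl | rfl
            · rw [swap_apply_of_ne_of_ne d1 d2, swap_apply_of_ne_of_ne b1 b2,
                swap_apply_of_ne_of_ne a1 a2, swap_apply_left]
            · rw [swap_apply_of_ne_of_ne d3 d4, swap_apply_of_ne_of_ne b3 b4,
                swap_apply_of_ne_of_ne a3 a4, swap_apply_right, hs]
            · rw [swap_apply_of_ne_of_ne e1 e2, swap_apply_of_ne_of_ne c1 c2,
                swap_apply_left, swap_apply_of_ne_of_ne a2.symm a4.symm]
            · rw [swap_apply_of_ne_of_ne e3 e4, swap_apply_of_ne_of_ne c3 c4,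
                swap_apply_right, swap_apply_of_ne_of_ne a1.symm a3.symm, hs]
            · rw [swap_apply_of_ne_of_ne g1 g2, swap_apply_left,
                swap_apply_of_ne_of_ne c2.symm c4.symm, swap_apply_of_ne_of_ne b2.symm b4.symm]
            · rw [swap_apply_of_ne_of_ne g3 g4, swap_apply_right,
                swap_apply_of_ne_of_ne c1.symm c3.symm, swap_apply_of_ne_of_ne b1.symm b3.symm, hs]
            · rw [swap_apply_left, swap_apply_of_ne_of_ne g2.symm g4.symm,
                swap_apply_of_ne_of_ne e2.symm e4.symm, swap_apply_of_ne_of_ne d2.symm d4.symm]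
            · rw [swap_apply_right, swap_apply_of_ne_of_ne g1.symm g3.symm,
                swap_apply_of_ne_of_ne e1.symm e3.symm, swap_apply_of_ne_of_ne d1.symm d3.symm, hs]
          rw [hprod]
          exact R.mul_mem (hcl _ _ (hf _) (hf _)) (hcl _ _ (hf _) (hf _))
        obtain ⟨g, hg, hne⟩ := hcon h8'.symm hsR hf
        apply hne
        by_cases hgs : g * s * g⁻¹ = s
        · rw [hgs]
        ext y
        obtain ⟨a, ha⟩ := exists_not_mem_finset
          ({y, s y, (g * s * g⁻¹) y, (g * s * g⁻¹) (s y)} : Finset Y)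
          (Finset.card_le_four.trans_lt (by omega))
        simp only [Finset.mem_insert, Finset.mem_singleton, not_or] at ha
        obtain ⟨ha1, ha2, ha3, ha4⟩ := ha
        obtain ⟨z, hz⟩ := exists_not_mem_finset
          ({a, s a, (g * s * g⁻¹) a, s ((g * s * g⁻¹) a), y, s y} : Finset Y)
          (Finset.card_le_six.trans_lt (by omega))
        simp only [Finset.mem_insert, Finset.mem_singleton, not_or] at hz
        obtain ⟨hz1, hz2, hz3, hz4, hz5, hz6⟩ := hz
        have := (key g hg hgs a y z (Ne.symm ha1) (fun h => ha2 (by rw [h, hs]))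
          (fun h => ha3 (by rw [h, hs1inv])) (fun h => ha4 (by rw [h, hs, hs1inv]))
          hz1 hz2 hz3 hz4 hz5 hz6).2
        rw [Perm.mul_apply, Perm.mul_apply]
        exact this
      · -- degree at least 9
        obtain ⟨a, -⟩ := exists_not_mem_finset (∅ : Finset Y) (by simp; omega)
        obtain ⟨y, hy⟩ := exists_not_mem_finset
          ({a, s a, (g0 * s * g0⁻¹) a, s ((g0 * s * g0⁻¹) a)} : Finset Y)
          (Finset.card_le_four.trans_lt (by omega))
        simp only [Finset.mem_insert, Finset.mem_singleton, not_or] at hy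
        obtain ⟨hy1, hy2, hy3, hy4⟩ := hy
        obtain ⟨z, hz⟩ := exists_not_mem_finset
          ({a, s a, (g0 * s * g0⁻¹) a, s ((g0 * s * g0⁻¹) a), y, s y} : Finset Y)
          (Finset.card_le_six.trans_lt (by omega))
        simp only [Finset.mem_insert, Finset.mem_singleton, not_or] at hz
        obtain ⟨hz1, hz2, hz3, hz4, hz5, hz6⟩ := hz
        obtain ⟨w, hw⟩ := exists_not_mem_finset (insert z (insert (s z)
          ({a, s a, (g0 * s * g0⁻¹) a, s ((g0 * s * g0⁻¹) a), y, s y} : Finset Y)))
          (by
            have h1 := Finset.card_insert_le z (insert (s z)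
              ({a, s a, (g0 * s * g0⁻¹) a, s ((g0 * s * g0⁻¹) a), y, s y} : Finset Y))
            have h2 := Finset.card_insert_le (s z)
              ({a, s a, (g0 * s * g0⁻¹) a, s ((g0 * s * g0⁻¹) a), y, s y} : Finset Y)
            have h3 : ({a, s a, (g0 * s * g0⁻¹) a, s ((g0 * s * g0⁻¹) a), y, s y} : Finset Y).card ≤ 6 :=
              Finset.card_le_six
            omega)
        simp only [Finset.mem_insert, Finset.mem_singleton, not_or] at hw
        obtain ⟨hw8, hw9, hw1, hw2, hw3, hw4, hw5, hw6⟩ := hw
        have h1 := (key g0 hg0 hne0 a y z hy1 hy2 hy3 hy4 hz1 hz2 hz3 hz4 hz5 hz6).1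
        have h2 := (key g0 hg0 hne0 a y w hy1 hy2 hy3 hy4 hw1 hw2 hw3 hw4 hw5 hw6).1
        rcases h1 with h | h <;> rcases h2 with h' | h'
        · exact hw8 (h'.symm.trans h)
        · apply hw9; rw [← h, h', hs]
        · exact hw9 (h'.symm.trans h)
        · exact hw8 (s.injective (h'.symm.trans h))

end Cfsg.Agent.H247
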