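import Mathlib
import Cfsg.Agent.H247.PermQS

/-!
# Primitive groups with quasisimple `F*` have no abelian normal subgroup
-/

set_option autoImplicit false
set_option linter.style.haveILetI false

namespace Cfsg.Agent.H247

open Equiv Equiv.Perm Subgroup

/-- elements of the closure of a commuting set commute -/
theorem closure_commute {G : Type*} [Group G] {S : Set G} (hc : ∀ a ∈ S, ∀ b ∈ S, a * b = b * a) :
    ∀ a ∈ closure S, ∀ b ∈ closure S, a * b = b * a := by
  have h1 : closure S ≤ centralizer S := by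
    rw [closure_le]
    intro a ha
    rw [SetLike.mem_coe, mem_centralizer_iff]
    intro b hb
    exact hc b hb a ha
  have h2 : closure S ≤ centralizer (closure S : Set G) := by
    rw [closure_le]
    intro a ha
    rw [SetLike.mem_coe, mem_centralizer_iff]
    intro b hb
    exact (mem_centralizer_iff.1 (h1 hb) a ha).symm
  intro a ha b hb
  exact mem_centralizer_iff.1 (h2 hb) a ha

variable {G : Type*} [Group G] {K : Subgroup G} {X : Type*} {ρ : G →* Perm X}

theorem QS.not_abelian (h : QS K) {N : Subgroup G} (hab : ∀ a ∈ N, ∀ b ∈ N, a * b = b * a)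
    (hK : K ≤ N) : False := by
  apply h.nontriv
  rw [← h.perfect, Subgroup.commutator_eq_bot_iff_le_centralizer]
  intro a ha
  rw [mem_centralizer_iff]
  intro b hb
  exact hab b (hK hb) a (hK ha)

/-- an abelian normal subgroup centralizes `K` -/
theorem QS.le_centralizer_of_abelian (h : QS K) {N : Subgroup G} (hN : N.Normal)
    (hab : ∀ a ∈ N, ∀ b ∈ N, a * b = b * a) : N ≤ centralizer (K : Set G) := by
  haveI := h.normal
  rcases h.min (N ⊓ K) inf_le_right (fun k hk x hx =>
    ⟨hN.conj_mem _ hx.1 _, h.normal.conj_mem _ hx.2 _⟩) with h1 | h1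
  · exact (h.not_abelian hab (inf_eq_right.1 h1)).elim
  · have h2 : ⁅N, K⁆ ≤ N ⊓ K := Subgroup.commutator_le_inf N K
    have h3 : ⁅⁅N, K⁆, K⁆ = ⊥ := by
      rw [Subgroup.commutator_eq_bot_iff_le_centralizer]
      exact h2.trans h1
    have h4 : ⁅⁅K, N⁆, K⁆ = ⊥ := by
      rw [Subgroup.commutator_comm K N]; exact h3
    have h5 : ⁅⁅K, K⁆, N⁆ = ⊥ := Subgroup.commutator_commutator_eq_bot_of_rotate h4 h3
    rwa [h.perfect, Subgroup.commutator_comm, Subgroup.commutator_eq_bot_iff_le_centralizer] at h5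

/-- a primitive group with `QS` has no nontrivial abelian normal subgroup -/
theorem QS.abelian_normal_eq_bot [Nonempty X] (h : QS K) (hρ : Function.Injective ρ)
    (hprim : MulAction.IsPreprimitive ρ.range X)
    {N : Subgroup G} (hN : N.Normal) (hab : ∀ a ∈ N, ∀ b ∈ N, a * b = b * a) : N = ⊥ := by
  by_contra hne
  have hNC := h.le_centralizer_of_abelian hN hab
  haveI hN' : (N.map ρ.rangeRestrict).Normal := hN.map _ ρ.rangeRestrict_surjective
  have htr : MulAction.IsPretransitive (N.map ρ.rangeRestrict) X := by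
    apply MulAction.IsQuasiPreprimitive.isPretransitive_of_normal
    intro hf
    apply hne
    rw [Subgroup.eq_bot_iff_forall]
    intro x hx
    apply hρ
    rw [map_one]
    ext a
    have h1 : a ∈ MulAction.fixedPoints (N.map ρ.rangeRestrict) X := by rw [hf]; trivial
    exact h1 ⟨ρ.rangeRestrict x, x, hx, rfl⟩
  have htr' : ∀ x y : X, ∃ n ∈ N, ρ n x = y := by
    intro x y
    obtain ⟨⟨_, n, hn, rfl⟩, hnx⟩ := htr.exists_smul_eq x y
    exact ⟨n, hn, hnx⟩
  apply h.not_abelian hab
  intro k hk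
  obtain ⟨x0⟩ := ‹Nonempty X›
  obtain ⟨n, hn, hnk⟩ := htr' x0 (ρ k x0)
  have h1 : n⁻¹ * k = 1 := by
    apply hρ
    rw [map_one]
    ext x
    obtain ⟨n', hn', rfl⟩ := htr' x0 x
    have hc : (n⁻¹ * k) * n' = n' * (n⁻¹ * k) := by
      have e1 : k * n' = n' * k := mem_centralizer_iff.1 (hNC hn') k hk
      have e2 : n⁻¹ * n' = n' * n⁻¹ := hab _ (N.inv_mem hn) _ hn'
      calc (n⁻¹ * k) * n' = n⁻¹ * (k * n') := by group
        _ = n⁻¹ * n' * k := by rw [e1]; group
        _ = n' * (n⁻¹ * k) := by rw [e2]; group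
    rw [← Perm.mul_apply, ← map_mul, hc, map_mul, Perm.mul_apply, map_mul, Perm.mul_apply, ← hnk]
    simp
  have : k = n := by
    rw [inv_mul_eq_one] at h1
    exact h1.symm
  rw [this]; exact hn

end Cfsg.Agent.H247
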