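import Cfsg.Agent.H247.Tables
import Cfsg.Agent.S0288
import Cfsg.Agent.ClassicalGeometry.IsoTransfer
import Cfsg.Prelude.Def_Classical

/-!
# The Sylow 2-subgroups of `S₈` and of `O₆⁻(2)`

Two explicit subgroups of order 128, given by tables.
-/

set_option autoImplicit false
set_option linter.style.haveILetI false

namespace Cfsg.Agent.H247.Syl128

/-- permutations of `Fin 8`, in base 8 -/
def aC : List ℕ := [16434824, 16434817, 16433690, 6852524, 16433242, 6823852, 16433683, 2207660, 6852517, 6851390, 16433235, 372652, 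
  6823845, 6822718, 16434376, 2178988, 2207653, 2206526, 6850942, 16406152, 6851383, 11789960, 16434369, 343980, 
  372645, 371518, 6822270, 16406145, 6822711, 11789953, 5017516, 2178981, 2177854, 2206078, 16405018, 2206519, 
  11788826, 6850935, 9954952, 6852076, 11761288, 4988844, 343973, 342846, 371070, 16404570, 371511, 11788378, 
  6822263, 9954945, 6823404, 11761281, 5017509, 5016382, 2177406, 16405011, 2177847, 11788819, 2206071, 9953818, 
  2207212, 11760154, 6852069, 9926280, 14599816, 4988837, 4987710, 342398, 16404563, 342839, 11788371, 371063, 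
  9953370, 372204, 11759706, 6823397, 9926273, 14599809, 5015934, 16405704, 5016375, 11789512, 2177399, 9953811, 
  2178540, 11760147, 2207205, 9925146, 14598682, 14571144, 4987262, 16405697, 4987703, 11789505, 342391, 9953363, 
  343532, 11759699, 372197, 9924698, 14598234, 14571137, 5015927, 9954504, 5017068, 11760840, 2178533, 9925139, 
  14598675, 14570010, 4987255, 9954497, 4988396, 11760833, 343525, 9924691, 14598227, 14569562, 5017061, 9925832, 
  14599368, 14570003, 4988389, 9925825, 14599361, 14569555, 14570696, 14570689]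

/-- matrices over `ZMod 2`, in base 2 -/
def bC : List ℕ := [34630287489, 34631336335, 60400092801, 34764507777, 60401141655, 34765556647, 64696108687, 51944377985, 34832665231, 60534311553, 64695060381, 51945426871, 
  34831616941, 60535360423, 38926303383, 56240393895, 52012535439, 43354443393, 60602469015, 34698444967, 64897436303, 51810156673, 38925255069, 56239345557, 
  52011487165, 43355492279, 60601420725, 34697396653, 64896388013, 51811205519, 39060523703, 56306454189, 47650459303, 43422600855, 60468250279, 47717568143, 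
  43220223617, 64829278877, 51878314167, 39127632535, 56173281447, 39059475349, 56307503003, 47649410965, 43421552549, 60467201973, 47716519869, 43221272471, 
  64830327739, 51877265853, 39126584245, 56172233133, 39126583997, 64830327479, 47716519605, 64762169005, 43421552301, 47516239503, 47649410717, 43288381111, 
  56307502743, 47583348391, 39059475101, 56105123989, 38993412279, 39127632795, 64829279125, 47717568387, 64763217851, 43422601115, 47515191197, 47650459563, 
  43287332773, 56306454437, 47582300085, 39060523963, 56106172827, 38992363965, 64896387749, 38992363701, 60601420477, 56106172567, 43355492027, 47582299837, 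
  52011486901, 43287332525, 56239345309, 47515190933, 64763217591, 38925254805, 64897436547, 38993412539, 60602469275, 56105124253, 43354443657, 47583348651, 
  52012535683, 43288381371, 56240394155, 47516239747, 64762169253, 38926303643, 60535360171, 56172232869, 34831616677, 51877265589, 51945426619, 43221272219, 
  60467201725, 64695060117, 60534311817, 56173281707, 34832665475, 51878314427, 51944378249, 43220223881, 60468250539, 64696108931, 34765556395, 51811205251, 
  34697396389, 60401141403, 34764508041, 51810156937, 34698445227, 60400093065, 34631336067, 34630287753]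

/-- right multiplication by the generators, in base 128 -/
def nuC : List ℕ := [49409, 82432, 114694, 1160, 180362, 18060, 247554, 34960, 313603, 344468, 379652, 68760, 
  445701, 475804, 492310, 102431, 561287, 590755, 623653, 135451, 660361, 152093, 673038, 169386, 
  742923, 771502, 804400, 202387, 841997, 219029, 236212, 908047, 935864, 968762, 264631, 1007121, 
  281273, 1040146, 302513, 1051198, 335539, 368961, 1122711, 1149893, 1182791, 396740, 1221785, 413382, 
  1254810, 435238, 1265227, 468264, 1304350, 1331024, 1363922, 518050, 1403424, 534692, 1436449, 545619, 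
  1446358, 578645, 1462951, 617420, 650317, 1502505, 1529052, 1561950, 699821, 1601579, 716463, 1634604, 
  727263, 1644386, 760289, 1660978, 799167, 832064, 1694310, 859099, 1733685, 875741, 1766710, 897979, 
  1776746, 931005, 1793340, 958443, 991340, 1029861, 1827054, 1073743, 1865794, 1090385, 1898819, 1112008, 
  1909490, 1145034, 1926089, 1173107, 1206004, 1243865, 1964878, 1288687, 1976438, 1321713, 1993044, 1358807, 
  1391704, 1420537, 2030938, 1486823, 2043514, 1519849, 2060128, 1555939, 1588836, 1618685, 2077544, 1684987, 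
  1717884, 1752941, 2094960, 1817079, 1849976, 1884149, 1948927, 2014974]

def aT (i : Fin 128) : ℕ := aC.getD i 0

def bT (i : Fin 128) : ℕ := bC.getD i 0

def nu (i : Fin 128) (k : Fin 3) : Fin 128 :=
  ⟨(nuC.getD i 0) / 128 ^ k.1 % 128, Nat.mod_lt _ (by norm_num)⟩

abbrev I6 : Type := (Fin 2 ⊕ Fin 2) ⊕ Fin 2

def pos (r : I6) : ℕ :=
  Sum.elim (Sum.elim (fun i : Fin 2 => i.1) (fun i : Fin 2 => i.1 + 2)) (fun i : Fin 2 => i.1 + 4) r

def ent (n : ℕ) : Matrix I6 I6 (ZMod 2) :=
  fun r c => ((n / 2 ^ (6 * pos r + pos c) % 2 : ℕ) : ZMod 2)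

def dig (n : ℕ) (x : Fin 8) : ℕ := n / 8 ^ x.1 % 8

/-- the generators in `S₈` -/
def g : Fin 3 → Equiv.Perm (Fin 8) := ![Equiv.swap 0 1,
  Equiv.swap 0 2 * Equiv.swap 1 3,
  Equiv.swap 0 4 * Equiv.swap 1 5 * Equiv.swap 2 6 * Equiv.swap 3 7]

theorem g_sq : ∀ k, g k * g k = 1 := by decide

theorem chk1 : ∀ i : Fin 128, ∀ k : Fin 3, ∀ x : Fin 8, dig (aT i) (g k x) = dig (aT (nu i k)) x := by
  decide +kernel

theorem chk1_one : ∀ x : Fin 8, x.1 = dig (aT 0) x := by decide +kernel

theorem chk1_inj : ∀ i j : Fin 128, (∀ x : Fin 8, dig (aT i) x = dig (aT j) x) → i = j := by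
  decide +kernel

/-- the bit of `n` in row `r`, column `c` -/
def bt (n r c : ℕ) : ℕ := n / 2 ^ (6 * r + c) % 2

/-- a six term product sum -/
def ps (a h r c : ℕ) : ℕ :=
  (bt a r 0 * bt h 0 c + bt a r 1 * bt h 1 c + (bt a r 2 * bt h 2 c + bt a r 3 * bt h 3 c) +
    (bt a r 4 * bt h 4 c + bt a r 5 * bt h 5 c)) % 2

theorem pos_lt (r : I6) : pos r < 6 := by
  revert r; decide

theorem ent_mul_ent {a h c : ℕ} (H : ∀ r s : Fin 6, ps a h r.1 s.1 = bt c r.1 s.1) :
    ent a * ent h = ent c := by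
  ext r s
  have h1 := H ⟨pos r, pos_lt r⟩ ⟨pos s, pos_lt s⟩
  rw [Matrix.mul_apply, Fintype.sum_sum_type, Fintype.sum_sum_type, Fin.sum_univ_two,
    Fin.sum_univ_two, Fin.sum_univ_two]
  change _ = ((bt c (pos r) (pos s) : ℕ) : ZMod 2)
  rw [← h1]
  change ((bt a (pos r) 0 : ℕ) : ZMod 2) * ((bt h 0 (pos s) : ℕ) : ZMod 2) +
    ((bt a (pos r) 1 : ℕ) : ZMod 2) * ((bt h 1 (pos s) : ℕ) : ZMod 2) +
    (((bt a (pos r) 2 : ℕ) : ZMod 2) * ((bt h 2 (pos s) : ℕ) : ZMod 2) +
    ((bt a (pos r) 3 : ℕ) : ZMod 2) * ((bt h 3 (pos s) : ℕ) : ZMod 2)) +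
    (((bt a (pos r) 4 : ℕ) : ZMod 2) * ((bt h 4 (pos s) : ℕ) : ZMod 2) +
    ((bt a (pos r) 5 : ℕ) : ZMod 2) * ((bt h 5 (pos s) : ℕ) : ZMod 2)) = _
  rw [ps, ZMod.natCast_mod]
  push_cast
  rfl

theorem chk2' : ∀ i : Fin 128, ∀ k : Fin 3, ∀ r s : Fin 6,
    ps (bT i) (bT (nu 0 k)) r.1 s.1 = bt (bT (nu i k)) r.1 s.1 := by
  decide +kernel

theorem chk2 (i : Fin 128) (k : Fin 3) : ent (bT i) * ent (bT (nu 0 k)) = ent (bT (nu i k)) :=
  ent_mul_ent (chk2' i k)

theorem chk2_mem : ∀ k : Fin 3, ∀ v : I6 → ZMod 2,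
    Cfsg.quadFormMinus 2 (ZMod 2) 1 1 ((ent (bT (nu 0 k))).mulVec v) = Cfsg.quadFormMinus 2 (ZMod 2) 1 1 v := by
  decide +kernel

theorem chk2_one : ent (bT 0) = 1 := by decide +kernel

theorem chk2_sq : ∀ k : Fin 3, ent (bT (nu 0 k)) * ent (bT (nu 0 k)) = 1 := by decide +kernel

theorem chk2_inj : ∀ i : Fin 128, ent (bT i) = 1 → i = 0 := by
  decide +kernel

theorem chk_reach : ∀ i : Fin 128, i ≠ 0 → ∃ j : Fin 128, ∃ k : Fin 3, j < i ∧ nu j k = i := by
  decide +kernel

instance instFactPrimeTwo : Fact (Nat.Prime 2) := ⟨Nat.prime_two⟩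

/-- `O₆⁻(2)` -/
abbrev O62 : Subgroup (Matrix.GeneralLinearGroup I6 (ZMod 2)) :=
  Cfsg.isometryGroup (ZMod 2) (Cfsg.quadFormMinus 2 (ZMod 2) 1 1)

/-- the generators in `O₆⁻(2)` -/
def h (k : Fin 3) : O62 :=
  ⟨⟨ent (bT (nu 0 k)), ent (bT (nu 0 k)), chk2_sq k, chk2_sq k⟩, fun u _ => chk2_mem k u⟩

def R1 (i : Fin 128) (γ : Equiv.Perm (Fin 8)) : Prop :=
  ∀ x : Fin 8, (γ x).1 = dig (aT i) x

def R2 (i : Fin 128) (γ : O62) : Prop :=
  ((γ : Matrix.GeneralLinearGroup I6 (ZMod 2)) : Matrix I6 I6 (ZMod 2)) = ent (bT i)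

theorem exists_iso128 : ∃ (H1 : Subgroup (Equiv.Perm (Fin 8))) (H2 : Subgroup O62),
    Nat.card H1 = 128 ∧ Nat.card H2 = 128 ∧ Nonempty (H1 ≃* H2) := by
  refine Tables.exists_iso g h g_sq ?_ R1 R2 0 ?_ ?_ nu ?_ ?_ ?_ ?_ ?_ ?_ chk_reach
  · intro k
    apply Subtype.ext
    apply Units.ext
    exact chk2_sq k
  · intro x
    exact chk1_one x
  · exact chk2_one.symm
  · intro i k γ hγ x
    rw [← chk1 i k x, ← hγ]
    rfl
  · intro i k γ hγ
    change ((γ : Matrix.GeneralLinearGroup I6 (ZMod 2)) : Matrix I6 I6 (ZMod 2)) * ent (bT (nu 0 k)) = _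
    rw [← chk2 i k]
    congr 1
  · intro i γ γ' h1 h2
    apply Equiv.ext
    intro x
    apply Fin.ext
    rw [h1 x, h2 x]
  · intro i γ γ' h1 h2
    apply Subtype.ext
    apply Units.ext
    exact h1.trans h2.symm
  · intro i j γ h1 h2
    apply chk1_inj
    intro x
    rw [← h1 x, ← h2 x]
  · intro i hi
    exact chk2_inj i hi.symm

theorem card_perm8 : Nat.card (Equiv.Perm (Fin 8)) = 2 ^ 7 * 315 := by
  rw [Nat.card_perm, Nat.card_eq_fintype_card, Fintype.card_fin]
  decide

theorem anisotropic_two {K : Type} [Field K] [Fintype K] (hK : Fintype.card K = 2) (a b : K)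
    (hab : ∀ z₁ z₂ : K, z₁ ^ 2 + a * z₁ * z₂ + b * z₂ ^ 2 = 0 → z₁ = 0 ∧ z₂ = 0) : a = 1 ∧ b = 1 := by
  have h01 : ∀ x : K, x = 0 ∨ x = 1 := by
    intro x
    by_contra hcon
    push Not at hcon
    classical
    have h3 : ({0, 1, x} : Finset K).card = 3 := by
      rw [Finset.card_insert_of_notMem, Finset.card_pair]
      · exact fun hh => hcon.2 hh.symm
      · simp only [Finset.mem_insert, Finset.mem_singleton, not_or]
        exact ⟨zero_ne_one, fun hh => hcon.1 hh.symm⟩
    have h4 := Finset.card_le_univ ({0, 1, x} : Finset K)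
    omega
  have h2 : (1 : K) + 1 = 0 := by
    rcases h01 (1 + 1) with h1 | h1
    · exact h1
    · exfalso
      have : (1 : K) = 0 := by
        have h5 : (1 : K) + 1 = 1 + 0 := by rw [h1, add_zero]
        exact add_left_cancel h5
      exact one_ne_zero this
  have hb : b = 1 := by
    rcases h01 b with h1 | h1
    · exfalso
      have := hab 0 1 (by rw [h1]; ring)
      exact one_ne_zero this.2
    · exact h1
  refine ⟨?_, hb⟩
  rcases h01 a with h1 | h1
  · exfalso
    have := hab 1 1 (by rw [h1, hb]; ring_nf; linear_combination h2)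
    exact one_ne_zero this.2
  · exact h1

theorem card_isometry {K : Type} [Field K] [Fintype K] (hK : Fintype.card K = 2) (a b : K)
    (hab : ∀ z₁ z₂ : K, z₁ ^ 2 + a * z₁ * z₂ + b * z₂ ^ 2 = 0 → z₁ = 0 ∧ z₂ = 0) :
    Nat.card (Cfsg.isometryGroup K (Cfsg.quadFormMinus 2 K a b)) = 2 ^ 7 * 405 := by
  have h1 := Cfsg.Agent.S0288.result hK 3 (by norm_num) a b hab
  rw [show (3 - 1 : ℕ) = 2 from rfl] at h1
  rw [h1]
  norm_num [Finset.prod_range_succ]

theorem sylow_iso (K : Type) [Field K] [Fintype K] (hK : Fintype.card K = 2) (a b : K)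
    (hab : ∀ z₁ z₂ : K, z₁ ^ 2 + a * z₁ * z₂ + b * z₂ ^ 2 = 0 → z₁ = 0 ∧ z₂ = 0)
    (P : Sylow 2 (Equiv.Perm (Fin 8)))
    (Q : Sylow 2 ↥(Cfsg.isometryGroup K (Cfsg.quadFormMinus 2 K a b))) :
    Nonempty (↥(P : Subgroup (Equiv.Perm (Fin 8))) ≃*
      ↥(Q : Subgroup ↥(Cfsg.isometryGroup K (Cfsg.quadFormMinus 2 K a b)))) := by
  obtain ⟨ha, hb⟩ := anisotropic_two hK a b hab
  obtain ⟨H1, H2, c1, c2, ⟨e⟩⟩ := exists_iso128
  let e0 : ZMod 2 ≃+* K := ZMod.ringEquivOfPrime K Nat.prime_two hK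
  have hQ : ∀ v, e0 (Cfsg.quadFormMinus 2 (ZMod 2) 1 1 v) = Cfsg.quadFormMinus 2 K a b (e0 ∘ v) := by
    intro v
    rw [ha, hb]
    simp only [Cfsg.quadFormMinus, map_add, map_sum, map_mul, map_pow, map_one, Function.comp_apply]
  let E : O62 ≃* Cfsg.isometryGroup K (Cfsg.quadFormMinus 2 K a b) :=
    Cfsg.Agent.ClassicalGeometry.IsoTransfer.isometryGroupCongr e0 _ _ hQ
  have hc := card_isometry hK a b hab
  have hc3 : Nat.card (H2.map E.toMonoidHom) = 2 ^ 7 := by
    rw [← Nat.card_congr (H2.equivMapOfInjective E.toMonoidHom E.injective).toEquiv, c2]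
    norm_num
  haveI : Finite (Cfsg.isometryGroup K (Cfsg.quadFormMinus 2 K a b)) :=
    Nat.finite_of_card_ne_zero (by rw [hc]; norm_num)
  obtain ⟨e1⟩ := Tables.sylow_equiv card_perm8 (by norm_num) P H1 (by rw [c1]; norm_num)
  obtain ⟨e2⟩ := Tables.sylow_equiv hc (by norm_num) Q _ hc3
  exact ⟨e1.trans (e.trans ((H2.equivMapOfInjective E.toMonoidHom E.injective).trans e2.symm))⟩

end Cfsg.Agent.H247.Syl128
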