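import Mathlib

/-!
# Overgroups of Sylow 3-subgroups of alternating groups
-/

set_option autoImplicit false
set_option linter.style.haveILetI false
set_option linter.unusedVariables false

namespace Cfsg.Agent.H247.ThreeMin

open Equiv Equiv.Perm Subgroup
open scoped Pointwise

variable {n : ℕ}

/-- the three-cycle `a → c → b → a` -/
def T {α : Type*} [DecidableEq α] (a b c : α) : Perm α := swap a b * swap a c

section

variable {α : Type*} [DecidableEq α] {a b c : α}

theorem T_a (hab : a ≠ b) (hac : a ≠ c) (hbc : b ≠ c) : T a b c a = c := by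
  rw [T, Perm.mul_apply, swap_apply_left, swap_apply_of_ne_of_ne hac.symm hbc.symm]

theorem T_b (hab : a ≠ b) (hac : a ≠ c) (hbc : b ≠ c) : T a b c b = a := by
  rw [T, Perm.mul_apply, swap_apply_of_ne_of_ne hab.symm hbc, swap_apply_right]

theorem T_c (hab : a ≠ b) (hac : a ≠ c) (hbc : b ≠ c) : T a b c c = b := by
  rw [T, Perm.mul_apply, swap_apply_right, swap_apply_left]

theorem T_fix {x : α} (ha : x ≠ a) (hb : x ≠ b) (hc : x ≠ c) : T a b c x = x := by
  rw [T, Perm.mul_apply, swap_apply_of_ne_of_ne ha hc, swap_apply_of_ne_of_ne ha hb]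

theorem T_three [Fintype α] (hab : a ≠ b) (hac : a ≠ c) (hbc : b ≠ c) : (T a b c).IsThreeCycle :=
  isThreeCycle_swap_mul_swap_same hab hac hbc

theorem T_sign [Fintype α] (hab : a ≠ b) (hac : a ≠ c) (hbc : b ≠ c) : sign (T a b c) = 1 :=
  (T_three hab hac hbc).sign

end

/-- preserving the partition into the blocks `{3q, 3q+1, 3q+2}` -/
def Pres (σ : Perm (Fin n)) : Prop := ∀ x y : Fin n, x.1 / 3 = y.1 / 3 ↔ (σ x).1 / 3 = (σ y).1 / 3

theorem T_pres {a b c : Fin n} (hab : a ≠ b) (hac : a ≠ c) (hbc : b ≠ c) (h1 : a.1 / 3 = b.1 / 3)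
    (h2 : a.1 / 3 = c.1 / 3) : Pres (T a b c) := by
  have h : ∀ x, (T a b c x).1 / 3 = x.1 / 3 := by
    intro x
    by_cases hxa : x = a
    · rw [hxa, T_a hab hac hbc, h2]
    by_cases hxb : x = b
    · rw [hxb, T_b hab hac hbc, h1]
    by_cases hxc : x = c
    · rw [hxc, T_c hab hac hbc, ← h1, h2]
    rw [T_fix hxa hxb hxc]
  intro x y
  rw [h, h]

/-- the third point of a block -/
theorem exists_third {m : ℕ} (hn : n = 3 * m) (u v : Fin n) (huv : u ≠ v)
    (h : u.1 / 3 = v.1 / 3) : ∃ w : Fin n, w ≠ u ∧ w ≠ v ∧ w.1 / 3 = u.1 / 3 := by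
  have hu := u.2
  have hv := v.2
  have hne : u.1 ≠ v.1 := fun h => huv (Fin.ext h)
  by_cases h0 : u.1 ≠ 3 * (u.1 / 3) ∧ v.1 ≠ 3 * (u.1 / 3)
  · refine ⟨⟨3 * (u.1 / 3), by omega⟩, ?_, ?_, ?_⟩
    · intro h; apply h0.1; rw [← h]; simp
    · intro h'; apply h0.2; rw [← h']
    · simp
  by_cases h1 : u.1 ≠ 3 * (u.1 / 3) + 1 ∧ v.1 ≠ 3 * (u.1 / 3) + 1
  · refine ⟨⟨3 * (u.1 / 3) + 1, by omega⟩, ?_, ?_, ?_⟩
    · intro h; rw [Fin.ext_iff] at h; simp only at h; omega
    · intro h; rw [Fin.ext_iff] at h; simp only at h; omega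
    · simp only; omega
  · refine ⟨⟨3 * (u.1 / 3) + 2, by omega⟩, ?_, ?_, ?_⟩
    · intro h; rw [Fin.ext_iff] at h; simp only at h; omega
    · intro h; rw [Fin.ext_iff] at h; simp only at h; omega
    · simp only; omega

/-- the rotation of three blocks -/
theorem exists_rot {m : ℕ} (hn : n = 3 * m) (q q' q'' : ℕ) (hq : q < m) (hq' : q' < m)
    (hq'' : q'' < m) (h1 : q ≠ q') (h2 : q ≠ q'') (h3 : q' ≠ q'') :
    ∃ σ : Perm (Fin n), sign σ = 1 ∧ Pres σ ∧ (∀ x : Fin n, x.1 / 3 = q → (σ x).1 / 3 = q') ∧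
      (∀ x : Fin n, x.1 / 3 = q' → (σ x).1 / 3 = q'') := by
  let f : Fin n → Fin n := fun x =>
    if x.1 / 3 = q then ⟨3 * q' + x.1 % 3, by omega⟩ else
    if x.1 / 3 = q' then ⟨3 * q'' + x.1 % 3, by omega⟩ else
    if x.1 / 3 = q'' then ⟨3 * q + x.1 % 3, by omega⟩ else x
  have fval : ∀ x : Fin n, (f x).1 = if x.1 / 3 = q then 3 * q' + x.1 % 3 else
    if x.1 / 3 = q' then 3 * q'' + x.1 % 3 else
    if x.1 / 3 = q'' then 3 * q + x.1 % 3 else x.1 := by
    intro x
    simp only [f]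
    split_ifs <;> rfl
  have fff : ∀ x, f (f (f x)) = x := by
    intro x
    apply Fin.ext
    have e1 := fval x
    have e2 := fval (f x)
    have e3 := fval (f (f x))
    split_ifs at e1 <;> split_ifs at e2 <;> split_ifs at e3 <;> omega
  let σ : Perm (Fin n) := ⟨f, fun x => f (f x), fff, fff⟩
  have hσ : ∀ x, (σ x).1 = if x.1 / 3 = q then 3 * q' + x.1 % 3 else
    if x.1 / 3 = q' then 3 * q'' + x.1 % 3 else
    if x.1 / 3 = q'' then 3 * q + x.1 % 3 else x.1 := fval
  refine ⟨σ, ?_, ?_, ?_, ?_⟩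
  · have h3 : σ ^ 3 = 1 := by
      ext x
      exact congrArg Fin.val (fff x)
    have h4 : (sign σ) ^ 3 = 1 := by rw [← map_pow, h3, map_one]
    rcases Int.units_eq_one_or (sign σ) with h | h
    · exact h
    · rw [h] at h4
      exact absurd h4 (by decide)
  · intro x y
    have e1 := hσ x
    have e2 := hσ y
    split_ifs at e1 <;> split_ifs at e2 <;> omega
  · intro x hx
    have e1 := hσ x
    split_ifs at e1
    omega
  · intro x hx
    have e1 := hσ x
    split_ifs at e1 <;> omega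

/-- **Lemma P** : a subgroup containing all even permutations preserving the partition into at least
three blocks of size three, and a suitable three-cycle, contains the alternating group. -/
theorem alternating_le {m : ℕ} (hn : n = 3 * m) (hm : 3 ≤ m) (M : Subgroup (Perm (Fin n)))
    (hW : ∀ σ : Perm (Fin n), sign σ = 1 → Pres σ → σ ∈ M) {x y z : Fin n} (hxy : x ≠ y)
    (hxy3 : x.1 / 3 = y.1 / 3) (hxz : x.1 / 3 ≠ z.1 / 3) (hT : T x y z ∈ M) :
    alternatingGroup (Fin n) ≤ M := by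
  have hx0 : ∀ u : Fin n, u.1 / 3 < m := fun u => by have := u.2; omega
  -- moves inside a block
  have hin : ∀ u v : Fin n, u ≠ v → u.1 / 3 = v.1 / 3 → ∃ σ ∈ M, σ u = v ∧
      (∀ w : Fin n, w.1 / 3 ≠ u.1 / 3 → σ w = w) ∧
      (∀ w : Fin n, w ≠ u → w ≠ v → w.1 / 3 = u.1 / 3 → σ v = w) := by
    intro u v huv h
    obtain ⟨w, hwu, hwv, hw⟩ := exists_third hn u v huv h
    refine ⟨T v u w, hW _ (T_sign huv.symm hwv.symm hwu.symm) (T_pres huv.symm hwv.symm hwu.symm h.symm
      (h.symm.trans hw.symm)), T_b huv.symm hwv.symm hwu.symm, ?_, ?_⟩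
    · intro w' hw'
      apply T_fix
      · intro h'; apply hw'; rw [h', h]
      · intro h'; apply hw'; rw [h']
      · intro h'; apply hw'; rw [h', hw]
    · intro w' h1 h2 h3
      rw [T_a huv.symm hwv.symm hwu.symm]
      apply Fin.ext
      rw [ne_eq, Fin.ext_iff] at hwu hwv h1 h2 huv
      omega
  have htr : ∀ u v : Fin n, ∃ σ ∈ M, σ u = v := by
    have hin' : ∀ u v : Fin n, u.1 / 3 = v.1 / 3 → ∃ σ ∈ M, σ u = v := by
      intro u v h
      by_cases huv : u = v
      · exact ⟨1, M.one_mem, by simpa using huv⟩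
      · obtain ⟨σ, hσ, h1, -⟩ := hin u v huv h
        exact ⟨σ, hσ, h1⟩
    intro u v
    by_cases huv : u.1 / 3 = v.1 / 3
    · exact hin' u v huv
    · obtain ⟨q'', hq'', h1, h2⟩ : ∃ q'' < m, u.1 / 3 ≠ q'' ∧ v.1 / 3 ≠ q'' := by
        by_cases h0 : u.1 / 3 ≠ 0 ∧ v.1 / 3 ≠ 0
        · exact ⟨0, by omega, h0⟩
        by_cases h1 : u.1 / 3 ≠ 1 ∧ v.1 / 3 ≠ 1
        · exact ⟨1, by omega, h1⟩
        · exact ⟨2, by omega, by omega, by omega⟩
      obtain ⟨σ, hσ1, hσ2, hσ3, hσ4⟩ := exists_rot hn (u.1 / 3) (v.1 / 3) q'' (hx0 u) (hx0 v) hq'' huv h1 h2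
      obtain ⟨τ, hτ, hτ2⟩ := hin' (σ u) v (hσ3 u rfl)
      exact ⟨τ * σ, M.mul_mem hτ (hW σ hσ1 hσ2), by simpa using hτ2⟩
  -- blocks
  have hb1 : ∀ C : Set (Fin n), (∀ σ ∈ M, ∀ x ∈ C, σ x ∈ C → ∀ y ∈ C, σ y ∈ C) →
      ∀ u ∈ C, ∀ v ∈ C, u.1 / 3 ≠ v.1 / 3 → C = Set.univ := by
    intro C hC u hu v hv huv
    have hfull : ∀ u ∈ C, ∀ v ∈ C, u.1 / 3 ≠ v.1 / 3 → ∀ w : Fin n, w.1 / 3 = u.1 / 3 → w ∈ C := by
      intro u hu v hv huv w hw
      by_cases hwu : w = u
      · rw [hwu]; exact hu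
      · obtain ⟨σ, hσ, h1, h2, -⟩ := hin u w (Ne.symm hwu) hw.symm
        have h3 : σ v = v := h2 v (Ne.symm huv)
        rw [← h1]
        exact hC σ hσ v hv (by rw [h3]; exact hv) u hu
    rw [Set.eq_univ_iff_forall]
    intro w
    by_cases hw1 : w.1 / 3 = u.1 / 3
    · exact hfull u hu v hv huv w hw1
    by_cases hw2 : w.1 / 3 = v.1 / 3
    · exact hfull v hv u hu (Ne.symm huv) w hw2
    obtain ⟨σ, hσ1, hσ2, hσ3, hσ4⟩ := exists_rot hn (u.1 / 3) (v.1 / 3) (w.1 / 3) (hx0 u) (hx0 v)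
      (hx0 w) huv (Ne.symm hw1) (Ne.symm hw2)
    have h5 : σ u ∈ C := hfull v hv u hu (Ne.symm huv) _ (hσ3 u rfl)
    have h6 := hC σ (hW σ hσ1 hσ2) u hu h5
    have h7 : (σ.symm w).1 / 3 = v.1 / 3 := by
      rw [hσ2, σ.apply_symm_apply, hσ4 v rfl]
    have h8 := h6 _ (hfull v hv u hu (Ne.symm huv) _ h7)
    rwa [σ.apply_symm_apply] at h8
  have hb2 : ∀ C : Set (Fin n), (∀ σ ∈ M, ∀ x ∈ C, σ x ∈ C → ∀ y ∈ C, σ y ∈ C) →
      C ≠ Set.univ → C.Nontrivial → ∀ u ∈ C, ∀ w : Fin n, w ∈ C ↔ w.1 / 3 = u.1 / 3 := by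
    intro C hC hC1 hC2 u hu
    have h1 : ∀ w ∈ C, w.1 / 3 = u.1 / 3 := by
      intro w hw
      by_contra hne
      exact hC1 (hb1 C hC w hw u hu hne)
    obtain ⟨v, hv, hvu⟩ := hC2.exists_ne u
    intro w
    refine ⟨h1 w, fun hw => ?_⟩
    by_cases hwu : w = u
    · rw [hwu]; exact hu
    by_cases hwv : w = v
    · rw [hwv]; exact hv
    obtain ⟨σ, hσ, h2, -, h3⟩ := hin u v (Ne.symm hvu) (h1 v hv).symm
    have h4 := hC σ hσ u hu (by rw [h2]; exact hv) v hv
    rwa [h3 w hwu hwv hw] at h4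
  -- primitivity
  have hprim : MulAction.IsPreprimitive M (Fin n) := by
    haveI : MulAction.IsPretransitive M (Fin n) := ⟨fun u v => by
      obtain ⟨σ, hσ, h⟩ := htr u v
      exact ⟨⟨σ, hσ⟩, h⟩⟩
    refine ⟨fun {C} hC => ?_⟩
    by_contra hnt
    rw [MulAction.IsTrivialBlock] at hnt
    push Not at hnt
    obtain ⟨hnt1, hnt2⟩ := hnt
    have hC' : ∀ σ ∈ M, ∀ x ∈ C, σ x ∈ C → ∀ y ∈ C, σ y ∈ C := by
      intro σ hσ x hx hx' y hy
      have h1 : (⟨σ, hσ⟩ : M) • C = C := by
        by_contra hne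
        have h2 : (⟨σ, hσ⟩ : M) • C ≠ (1 : M) • C := by rwa [one_smul]
        have h3 := hC h2
        rw [one_smul] at h3
        exact Set.disjoint_left.1 h3 ⟨x, hx, rfl⟩ hx'
      rw [← h1]
      exact ⟨y, hy, rfl⟩
    obtain ⟨c, hc⟩ := hnt1.nonempty
    obtain ⟨g, hg, hgc⟩ := htr c x
    have hD : ∀ σ ∈ M, ∀ x ∈ g '' C, σ x ∈ g '' C → ∀ y ∈ g '' C, σ y ∈ g '' C := by
      rintro σ hσ _ ⟨u, hu, rfl⟩ ⟨v, hv, hvu⟩ _ ⟨w, hw, rfl⟩
      have h1 := hC' (g⁻¹ * σ * g) (M.mul_mem (M.mul_mem (M.inv_mem hg) hσ) hg) u hu (by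
        have : (g⁻¹ * σ * g) u = v := by
          simp only [Perm.mul_apply]
          rw [← hvu]
          exact g.symm_apply_apply v
        rw [this]; exact hv) w hw
      refine ⟨_, h1, ?_⟩
      simp only [Perm.mul_apply]
      exact g.apply_symm_apply _
    have hDx : x ∈ g '' C := ⟨c, hc, hgc⟩
    have hD1 : g '' C ≠ Set.univ := by
      intro h
      apply hnt2
      rw [Set.eq_univ_iff_forall] at h ⊢
      intro w
      obtain ⟨w', hw', h'⟩ := h (g w)
      rw [← g.injective h']; exact hw'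
    have hD2 : (g '' C).Nontrivial := hnt1.image g.injective
    have hD3 := hb2 _ hD hD1 hD2 x hDx
    have hxz' : x ≠ z := fun h => hxz (by rw [h])
    have hyz' : y ≠ z := fun h => hxz (by rw [hxy3, h])
    have h4 := hD _ hT y ((hD3 y).2 hxy3.symm) (by rw [T_b hxy hxz' hyz']; exact hDx) x hDx
    rw [T_a hxy hxz' hyz'] at h4
    exact hxz ((hD3 z).1 h4).symm
  have hxz' : x ≠ z := fun h => hxz (by rw [h])
  have hyz' : y ≠ z := fun h => hxz (by rw [hxy3, h])
  exact alternatingGroup_le_of_isPreprimitive_of_isThreeCycle_mem hprim (T_three hxy hxz' hyz') hT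

/-- two three-cycles of a 3-group with a common point in their supports have equal supports -/
theorem supp_eq {α : Type*} [Fintype α] [DecidableEq α] (P : Subgroup (Perm α)) (hP : IsPGroup 3 P)
    {c d : Perm α} (hc : c ∈ P) (hd : d ∈ P) (hc3 : c.IsThreeCycle) (hd3 : d.IsThreeCycle) {u : α}
    (hcu : c u ≠ u) (hdu : d u ≠ u) : ∀ v, c v ≠ v → d v ≠ v := by
  let R : Subgroup (Perm α) := closure {c, d}
  have hRP : R ≤ P := by
    rw [closure_le]
    intro x hx
    rcases hx with rfl | rfl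
    · exact hc
    · exact hd
  have hcR : c ∈ R := subset_closure (by simp)
  have hdR : d ∈ R := subset_closure (by simp)
  have hR : IsPGroup 3 R := hP.to_le hRP
  -- the orbit is contained in the union of the supports
  have hfix : ∀ σ ∈ R, ∀ v, v ∉ c.support ∪ d.support → σ v = v := by
    intro σ hσ v hv
    rw [Finset.mem_union, not_or, notMem_support, notMem_support] at hv
    induction hσ using closure_induction with
    | mem x hx =>
      rcases hx with rfl | rfl
      · exact hv.1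
      · exact hv.2
    | one => rfl
    | mul x y _ _ h1 h2 => rw [Perm.mul_apply, h2, h1]
    | inv x _ h1 =>
      have : x⁻¹ (x v) = v := x.symm_apply_apply v
      rwa [h1] at this
  have hsub : MulAction.orbit R u ⊆ ((c.support ∪ d.support : Finset α) : Set α) := by
    rintro _ ⟨⟨σ, hσ⟩, rfl⟩
    by_contra hcon
    have h1 := hfix σ⁻¹ (R.inv_mem hσ) (σ u) hcon
    have h2 : σ⁻¹ (σ u) = u := σ.symm_apply_apply u
    rw [h2] at h1
    apply hcon
    show σ u ∈ _
    rw [← h1, Finset.mem_coe, Finset.mem_union, mem_support]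
    exact Or.inl hcu
  have hcard : (MulAction.orbit R u).ncard ≤ 5 := by
    have h1 := Set.ncard_le_ncard hsub
    rw [Set.ncard_coe_finset] at h1
    have h2 := Finset.card_union_add_card_inter c.support d.support
    have h3 : 0 < (c.support ∩ d.support).card := Finset.card_pos.2 ⟨u, by
      rw [Finset.mem_inter, mem_support, mem_support]; exact ⟨hcu, hdu⟩⟩
    rw [hc3.card_support, hd3.card_support] at h2
    omega
  obtain ⟨k, hk⟩ := hR.card_orbit u
  rw [Nat.card_coe_set_eq] at hk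
  have hk3 : (MulAction.orbit R u).ncard ≤ 3 := by
    rw [hk] at hcard ⊢
    rcases k with _ | _ | k
    · norm_num
    · norm_num
    · have : 3 ^ (k + 2) = 9 * 3 ^ k := by ring
      have h3 : 1 ≤ 3 ^ k := Nat.one_le_pow _ _ (by norm_num)
      omega
  have hin : ∀ e ∈ R, e.IsThreeCycle → e u ≠ u → (e.support : Set α) = MulAction.orbit R u := by
    intro e he he3 heu
    apply Set.eq_of_subset_of_ncard_le
    · intro v hv
      rw [Finset.mem_coe, mem_support] at hv
      obtain ⟨i, hi⟩ := he3.isCycle.sameCycle heu hv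
      exact ⟨⟨e ^ i, R.zpow_mem he i⟩, hi⟩
    · rw [Set.ncard_coe_finset, he3.card_support]; exact hk3
    · exact Set.toFinite _
  intro v hv
  have h1 : v ∈ (c.support : Set α) := by rw [Finset.mem_coe, mem_support]; exact hv
  rw [hin c hcR hc3 hcu, ← hin d hdR hd3 hdu, Finset.mem_coe, mem_support] at h1
  exact h1

/-- the three-cycle on the `q`-th block -/
def cyc (n q : ℕ) (h : 3 * q + 2 < n) : Perm (Fin n) :=
  T ⟨3 * q, by omega⟩ ⟨3 * q + 1, by omega⟩ ⟨3 * q + 2, h⟩

theorem cyc_three (q : ℕ) (h : 3 * q + 2 < n) : (cyc n q h).IsThreeCycle := by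
  apply T_three <;> simp [Fin.ext_iff]

theorem cyc_fix (q : ℕ) (h : 3 * q + 2 < n) (x : Fin n) (hx : x.1 / 3 ≠ q) :
    cyc n q h x = x := by
  apply T_fix
  · intro hc; apply hx; rw [hc]; simp
  · intro hc; apply hx; rw [hc]; simp only; omega
  · intro hc; apply hx; rw [hc]; simp only; omega

theorem cyc_move (q : ℕ) (h : 3 * q + 2 < n) (x : Fin n) (hx : x.1 / 3 = q) :
    cyc n q h x ≠ x := by
  have hne : ∀ (a b : ℕ) (ha : a < n) (hb : b < n), a ≠ b → (⟨a, ha⟩ : Fin n) ≠ ⟨b, hb⟩ := by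
    intro a b ha hb hab h
    rw [Fin.mk.injEq] at h
    exact hab h
  have h3 : x = ⟨3 * q, by omega⟩ ∨ x = ⟨3 * q + 1, by omega⟩ ∨ x = ⟨3 * q + 2, h⟩ := by
    simp only [Fin.ext_iff]
    omega
  rw [cyc]
  rcases h3 with h3 | h3 | h3 <;> rw [h3]
  · rw [T_a (hne _ _ _ _ (by omega)) (hne _ _ _ _ (by omega)) (hne _ _ _ _ (by omega))]
    exact hne _ _ _ _ (by omega)
  · rw [T_b (hne _ _ _ _ (by omega)) (hne _ _ _ _ (by omega)) (hne _ _ _ _ (by omega))]
    exact hne _ _ _ _ (by omega)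
  · rw [T_c (hne _ _ _ _ (by omega)) (hne _ _ _ _ (by omega)) (hne _ _ _ _ (by omega))]
    exact hne _ _ _ _ (by omega)

theorem cyc_div (q : ℕ) (h : 3 * q + 2 < n) (x : Fin n) : (cyc n q h x).1 / 3 = x.1 / 3 := by
  by_cases hx : x.1 / 3 = q
  · by_contra hne
    rw [hx] at hne
    have h1 := cyc_fix q h _ hne
    exact cyc_move q h x hx ((cyc n q h).injective h1)
  · rw [cyc_fix q h x hx]

theorem cyc_comm (q r : ℕ) (h : 3 * q + 2 < n) (h' : 3 * r + 2 < n) :
    cyc n q h * cyc n r h' = cyc n r h' * cyc n q h := by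
  by_cases hqr : q = r
  · subst hqr; rfl
  · have h1 : Disjoint (cyc n q h) (cyc n r h') := by
      intro x
      by_cases hx : x.1 / 3 = q
      · right
        apply cyc_fix
        omega
      · left
        exact cyc_fix q h x hx
    exact h1.commute

/-- a 3-group containing all the cycles preserves the partition -/
theorem pres_of_mem {m : ℕ} (hn : n = 3 * m) (P : Subgroup (Perm (Fin n))) (hP : IsPGroup 3 P)
    (hE : ∀ q (h : 3 * q + 2 < n), cyc n q h ∈ P) : ∀ σ ∈ P, Pres σ := by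
  have key : ∀ σ ∈ P, ∀ x y : Fin n, x.1 / 3 = y.1 / 3 → (σ x).1 / 3 = (σ y).1 / 3 := by
    intro σ hσ x y hxy
    have hx := x.2
    have hsx := (σ x).2
    have h1 : 3 * (x.1 / 3) + 2 < n := by omega
    have h2 : 3 * ((σ x).1 / 3) + 2 < n := by omega
    have hconj : ∀ w, (σ * cyc n _ h1 * σ⁻¹) (σ w) = σ (cyc n _ h1 w) := by
      intro w
      rw [Perm.mul_apply, Perm.mul_apply]
      congr 2
      exact σ.symm_apply_apply w
    by_contra hne
    have h3 := cyc_fix _ h2 (σ y) (Ne.symm hne)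
    refine supp_eq P hP (P.mul_mem (P.mul_mem hσ (hE _ h1)) (P.inv_mem hσ)) (hE _ h2)
      ?_ (cyc_three _ h2) (u := σ x) ?_ (cyc_move _ h2 _ rfl) (σ y) ?_ h3
    · rw [IsThreeCycle, cycleType_conj]
      exact cyc_three _ h1
    · rw [hconj]
      intro h
      exact cyc_move _ h1 x rfl (σ.injective h)
    · rw [hconj]
      intro h
      exact cyc_move _ h1 y hxy.symm (σ.injective h)
  intro σ hσ x y
  refine ⟨key σ hσ x y, fun h => ?_⟩
  have := key σ⁻¹ (P.inv_mem hσ) _ _ h
  have e1 : σ⁻¹ (σ x) = x := σ.symm_apply_apply x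
  have e2 : σ⁻¹ (σ y) = y := σ.symm_apply_apply y
  rwa [e1, e2] at this

/-- the stabilizer of a relation -/
def relStab (R : Fin n → Fin n → Prop) : Subgroup (alternatingGroup (Fin n)) where
  carrier := {σ | ∀ x y, R x y ↔ R (σ.1 x) (σ.1 y)}
  mul_mem' := by
    intro a b ha hb x y
    rw [hb x y, ha (b.1 x) (b.1 y)]
    rfl
  one_mem' := fun _ _ => Iff.rfl
  inv_mem' := by
    intro a ha x y
    have h := ha (a.1⁻¹ x) (a.1⁻¹ y)
    have h1 : a.1 (a.1⁻¹ x) = x := a.1.apply_symm_apply x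
    have h2 : a.1 (a.1⁻¹ y) = y := a.1.apply_symm_apply y
    rw [h1, h2] at h
    exact h.symm

theorem mem_relStab {R : Fin n → Fin n → Prop} {σ : alternatingGroup (Fin n)} :
    σ ∈ relStab R ↔ ∀ x y, R x y ↔ R (σ.1 x) (σ.1 y) := Iff.rfl

section cases

variable {Q M : Subgroup (alternatingGroup (Fin n))}

/-- In degree divisible by three, an invariant equivalence relation joining points of different blocks
is universal. -/
theorem contra {m : ℕ} (hn : n = 3 * m) (hm : 3 ≤ m) (hM : M ≠ ⊤)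
    (hW : ∀ σ : alternatingGroup (Fin n), Pres σ.1 → σ ∈ M)
    (hU : ∀ L, Q ≤ L → L ≠ ⊤ → L ≤ M) (R : Fin n → Fin n → Prop) (hR : Equivalence R)
    (hRQ : ∀ σ ∈ Q, ∀ x y, R x y ↔ R (σ.1 x) (σ.1 y)) (x y z : Fin n) (hxy : x ≠ y)
    (hxy3 : x.1 / 3 = y.1 / 3) (hxz : x.1 / 3 ≠ z.1 / 3) (hRxy : R x y) (hRxz : R x z)
    (hprop : ∃ u, ¬ R x u) : False := by
  have hxz' : x ≠ z := fun h => hxz (by rw [h])
  have hyz' : y ≠ z := fun h => hxz (by rw [hxy3, h])
  have hL : relStab R ≤ M := by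
    apply hU (relStab R) (fun σ hσ => mem_relStab.2 (hRQ σ hσ))
    intro htop
    obtain ⟨u, hu⟩ := hprop
    have hux : u ≠ x := fun h => hu (by rw [h]; exact hR.refl x)
    have huy : u ≠ y := fun h => hu (by rw [h]; exact hRxy)
    have huz : u ≠ z := fun h => hu (by rw [h]; exact hRxz)
    have h1 : (⟨T u y z, mem_alternatingGroup.2 (T_sign huy huz hyz')⟩ : alternatingGroup (Fin n)) ∈
        relStab R := by rw [htop]; trivial
    have h2 := (mem_relStab.1 h1 x y).1 hRxy
    simp only at h2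
    rw [T_fix hux.symm hxy hxz', T_b huy huz hyz'] at h2
    exact hu h2
  have hT : (⟨T x y z, mem_alternatingGroup.2 (T_sign hxy hxz' hyz')⟩ : alternatingGroup (Fin n)) ∈ M := by
    apply hL
    rw [mem_relStab]
    have hRT : ∀ w, R w (T x y z w) := by
      intro w
      by_cases hwx : w = x
      · rw [hwx, T_a hxy hxz' hyz']; exact hRxz
      by_cases hwy : w = y
      · rw [hwy, T_b hxy hxz' hyz']; exact hR.symm hRxy
      by_cases hwz : w = z
      · rw [hwz, T_c hxy hxz' hyz']; exact hR.trans (hR.symm hRxz) hRxy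
      rw [T_fix hwx hwy hwz]; exact hR.refl w
    intro a b
    simp only
    constructor
    · intro h
      exact hR.trans (hR.trans (hR.symm (hRT a)) h) (hRT b)
    · intro h
      exact hR.trans (hR.trans (hRT a) h) (hR.symm (hRT b))
  apply hM
  have h3 := alternating_le hn hm (M.map (alternatingGroup (Fin n)).subtype)
    (fun σ hs hp => ⟨⟨σ, mem_alternatingGroup.2 hs⟩, hW _ hp, rfl⟩) hxy hxy3 hxz ⟨_, hT, rfl⟩
  rw [eq_top_iff]
  intro σ _
  obtain ⟨τ, hτ, hτσ⟩ := h3 σ.2
  have : τ = σ := Subtype.ext hτσ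
  rwa [this] at hτ

theorem main (h5 : 5 ≤ n) (hQ : IsPGroup 3 Q) (hE : ∀ q (h : 3 * q + 2 < n), ∃ c ∈ Q, c.1 = cyc n q h)
    (hM : IsCoatom M) (hQM : Q ≤ M) (huniq : ∀ L, IsCoatom L → Q ≤ L → L = M) :
    n = 6 ∨ n = 9 ∨ ∃ a : ℕ, 2 ≤ a ∧ n = 3 ^ a + 1 := by
  classical
  haveI : Fact (Nat.Prime 3) := ⟨Nat.prime_three⟩
  have hU : ∀ L, Q ≤ L → L ≠ ⊤ → L ≤ M := by
    intro L hQL hL
    obtain ⟨N, hN, hLN⟩ := (eq_top_or_exists_le_coatom L).resolve_left hL
    rw [← huniq N hN (hQL.trans hLN)]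
    exact hLN
  -- the stabilizer of a fixed point
  have hfp : ∀ a : Fin n, (∀ σ ∈ Q, σ.1 a = a) → ∀ σ ∈ M, σ.1 a = a := by
    intro a ha
    have h1 : IsCoatom (MulAction.stabilizer (alternatingGroup (Fin n)) ({a} : Set (Fin n))) :=
      alternatingGroup.isCoatom_stabilizer_singleton (by simp; omega) (by simp) (by simp)
    have h2 := huniq _ h1 (by
      intro σ hσ
      rw [MulAction.mem_stabilizer_iff, Set.smul_set_singleton]
      exact congrArg _ (ha σ hσ))
    intro σ hσ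
    rw [← h2, MulAction.mem_stabilizer_iff, Set.smul_set_singleton] at hσ
    exact Set.singleton_injective hσ
  have hfpU : ∀ a : Fin n, (∀ σ ∈ Q, σ.1 a = a) → ∀ σ : alternatingGroup (Fin n), σ.1 a = a → σ ∈ M := by
    intro a ha
    have h1 : IsCoatom (MulAction.stabilizer (alternatingGroup (Fin n)) ({a} : Set (Fin n))) :=
      alternatingGroup.isCoatom_stabilizer_singleton (by simp; omega) (by simp) (by simp)
    have h2 := huniq _ h1 (by
      intro σ hσ
      rw [MulAction.mem_stabilizer_iff, Set.smul_set_singleton]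
      exact congrArg _ (ha σ hσ))
    intro σ hσ
    rw [← h2, MulAction.mem_stabilizer_iff, Set.smul_set_singleton]
    exact congrArg _ hσ
  have havoid : ∀ F : Finset (Fin n), F.card ≤ 4 → ∃ y, y ∉ F := by
    intro F hF
    by_contra hc
    push Not at hc
    have : F = Finset.univ := Finset.eq_univ_iff_forall.2 hc
    rw [this, Finset.card_univ, Fintype.card_fin] at hF
    omega
  have htwo : ∀ a b : Fin n, a ≠ b → (∀ σ ∈ Q, σ.1 a = a) → (∀ σ ∈ Q, σ.1 b = b) → False := by
    intro a b hab ha hb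
    obtain ⟨c, hc⟩ := havoid {a, b} (by exact Finset.card_le_two.trans (by norm_num))
    simp only [Finset.mem_insert, Finset.mem_singleton, not_or] at hc
    obtain ⟨d, hd⟩ := havoid {a, b, c} (by exact Finset.card_le_three.trans (by norm_num))
    simp only [Finset.mem_insert, Finset.mem_singleton, not_or] at hd
    have h1 := hfpU a ha ⟨T b c d, mem_alternatingGroup.2 (T_sign (Ne.symm hc.2) (Ne.symm hd.2.1)
      (Ne.symm hd.2.2))⟩ (T_fix hab (Ne.symm hc.1) (Ne.symm hd.1))
    have h2 := hfp b hb _ h1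
    simp only at h2
    rw [T_a (Ne.symm hc.2) (Ne.symm hd.2.1) (Ne.symm hd.2.2)] at h2
    exact hd.2.1 h2
  have hmod := hQ.card_modEq_card_fixedPoints (Fin n)
  have hmemfix : ∀ a : Fin n, a ∈ MulAction.fixedPoints Q (Fin n) ↔ ∀ σ ∈ Q, σ.1 a = a := by
    intro a
    rw [MulAction.mem_fixedPoints]
    exact ⟨fun h σ hσ => h ⟨σ, hσ⟩, fun h σ => h σ.1 σ.2⟩
  have hle1 : Nat.card (MulAction.fixedPoints Q (Fin n)) ≤ 1 := by
    by_contra hlt
    push Not at hlt
    rw [Finite.one_lt_card_iff_nontrivial] at hlt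
    obtain ⟨⟨a, ha⟩, ⟨b, hb⟩, hab⟩ := hlt.exists_pair_ne
    exact htwo a b (fun h => hab (Subtype.ext h)) ((hmemfix a).1 ha) ((hmemfix b).1 hb)
  rw [Nat.card_eq_fintype_card, Fintype.card_fin] at hmod
  rcases Nat.lt_or_ge (Nat.card (MulAction.fixedPoints Q (Fin n))) 1 with hz | hz
  · -- `n` divisible by three
    have hc0 : Nat.card (MulAction.fixedPoints Q (Fin n)) = 0 := by omega
    rw [hc0] at hmod
    obtain ⟨m, hm⟩ : 3 ∣ n := (Nat.modEq_zero_iff_dvd).1 hmod
    by_cases hm2 : m = 2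
    · left; omega
    have hm3 : 3 ≤ m := by omega
    right
    by_contra hcon
    push Not at hcon
    -- the permutation group
    let P : Subgroup (Perm (Fin n)) := Q.map (alternatingGroup (Fin n)).subtype
    have hP : IsPGroup 3 P := hQ.map _
    have hEP : ∀ q (h : 3 * q + 2 < n), cyc n q h ∈ P := by
      intro q h
      obtain ⟨c, hc, hc'⟩ := hE q h
      exact ⟨c, hc, hc'⟩
    have hpres := pres_of_mem hm P hP hEP
    have hWM : ∀ σ : alternatingGroup (Fin n), Pres σ.1 → σ ∈ M := by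
      have h1 : relStab (fun x y : Fin n => x.1 / 3 = y.1 / 3) ≤ M := by
        apply hU
        · intro σ hσ
          exact hpres σ.1 ⟨σ, hσ, rfl⟩
        · intro htop
          have hne : ∀ (a b : ℕ) (ha : a < n) (hb : b < n), a ≠ b →
              (⟨a, ha⟩ : Fin n) ≠ ⟨b, hb⟩ := by
            intro a b ha hb hab h
            rw [Fin.mk.injEq] at h
            exact hab h
          have h13 := hne 1 3 (by omega) (by omega) (by omega)
          have h16 := hne 1 6 (by omega) (by omega) (by omega)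
          have h36 := hne 3 6 (by omega) (by omega) (by omega)
          have h2 : (⟨T _ _ _, mem_alternatingGroup.2 (T_sign h13 h16 h36)⟩ :
            alternatingGroup (Fin n)) ∈ relStab (fun x y : Fin n => x.1 / 3 = y.1 / 3) := by
            rw [htop]; trivial
          have h3 := (mem_relStab.1 h2 ⟨0, by omega⟩ ⟨1, by omega⟩).1 (by norm_num)
          simp only at h3
          rw [T_a h13 h16 h36, T_fix (hne _ _ _ _ (by omega)) (hne _ _ _ _ (by omega))
            (hne _ _ _ _ (by omega))] at h3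
          norm_num at h3
      intro σ hσ
      exact h1 hσ
    have hcontra := fun R hR hRQ x y z hxy hxy3 hxz hRxy hRxz hprop =>
      contra (Q := Q) (M := M) hm hm3 hM.1 hWM hU R hR hRQ x y z hxy hxy3 hxz hRxy hRxz hprop
    -- a partner in the same block
    have hpart : ∀ x : Fin n, ∃ c ∈ Q, x ≠ c.1 x ∧ x.1 / 3 = (c.1 x).1 / 3 ∧
        ∀ z : Fin n, z.1 / 3 ≠ x.1 / 3 → c.1 z = z := by
      intro x
      have hx := x.2
      obtain ⟨c, hc, hc'⟩ := hE (x.1 / 3) (by omega)
      refine ⟨c, hc, ?_, ?_, ?_⟩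
      · rw [hc']; exact (cyc_move _ _ x rfl).symm
      · rw [hc', cyc_div]
      · intro z hz; rw [hc']; exact cyc_fix _ _ z hz
    by_cases htrans : ∀ x y : Fin n, ∃ σ ∈ Q, σ.1 x = y
    · -- transitive
      haveI : MulAction.IsPretransitive Q (Fin n) := ⟨fun x y => by
        obtain ⟨σ, hσ, h⟩ := htrans x y
        exact ⟨⟨σ, hσ⟩, h⟩⟩
      let x0 : Fin n := ⟨0, by omega⟩
      obtain ⟨k, hk⟩ := hQ.card_orbit x0
      rw [MulAction.orbit_eq_univ, Nat.card_coe_set_eq, Set.ncard_univ, Nat.card_eq_fintype_card,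
        Fintype.card_fin] at hk
      have hk3 : 3 ≤ k := by
        rcases k with _ | _ | _ | k
        · norm_num at hk; omega
        · norm_num at hk; omega
        · norm_num at hk; exact absurd hk hcon.1
        · omega
      -- the subgroup above the stabilizer
      have hidx : (MulAction.stabilizer Q x0).index = n := by
        rw [MulAction.index_stabilizer_of_transitive, Nat.card_eq_fintype_card, Fintype.card_fin]
      obtain ⟨e, he⟩ := hQ.exists_card_eq
      obtain ⟨f, hf⟩ := (hQ.to_subgroup (MulAction.stabilizer Q x0)).exists_card_eq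
      have hmul := Subgroup.card_mul_index (MulAction.stabilizer Q x0)
      rw [hidx, he, hf, hk, ← pow_add] at hmul
      have hef : f + k = e := Nat.pow_right_injective (le_refl 2 |>.trans (by norm_num)) hmul
      obtain ⟨P1, hP1c, hP1⟩ := Sylow.exists_subgroup_card_pow_prime_le 3 (m := e - 1)
        (by rw [he]; exact pow_dvd_pow _ (by omega)) (MulAction.stabilizer Q x0) hf (by omega)
      have hD : MulAction.IsBlock Q (MulAction.orbit P1 x0) := MulAction.IsBlock.of_orbit hP1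
      set D := MulAction.orbit P1 x0 with hDdef
      have hDcard : D.ncard = 3 ^ (k - 1) := by
        have h1 : (MulAction.stabilizer P1 x0).index = D.ncard := MulAction.index_stabilizer _ _
        have h2 : Nat.card (MulAction.stabilizer P1 x0) = Nat.card (MulAction.stabilizer Q x0) := by
          have h3 : MulAction.stabilizer P1 x0 = (MulAction.stabilizer Q x0).subgroupOf P1 := by
            ext g; rfl
          rw [h3]
          exact Nat.card_congr (Subgroup.subgroupOfEquivOfLe hP1).toEquiv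
        have h4 := Subgroup.card_mul_index (MulAction.stabilizer P1 x0)
        rw [h1, h2, hf, hP1c] at h4
        have h5 : e - 1 = f + (k - 1) := by omega
        rw [h5, pow_add] at h4
        exact Nat.eq_of_mul_eq_mul_left (pow_pos (by norm_num) _) h4
      have hblk : ∀ σ ∈ Q, ∀ x ∈ D, σ.1 x ∈ D → ∀ y, y ∈ D ↔ σ.1 y ∈ D := by
        intro σ hσ x hx hx' y
        have h1 : (⟨σ, hσ⟩ : Q) • D = D := by
          by_contra hne
          have h2 : (⟨σ, hσ⟩ : Q) • D ≠ (1 : Q) • D := by rwa [one_smul]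
          have h3 := hD h2
          rw [one_smul] at h3
          exact Set.disjoint_left.1 h3 ⟨x, hx, rfl⟩ hx'
        constructor
        · intro hy
          rw [← h1]
          exact ⟨y, hy, rfl⟩
        · intro hy
          rw [← h1] at hy
          obtain ⟨w, hw, hwy⟩ := hy
          have : w = y := σ.1.injective hwy
          rwa [this] at hw
      have hx0D : x0 ∈ D := MulAction.mem_orbit_self x0
      -- a point of `D` in another block
      obtain ⟨z, hzD, hz3⟩ : ∃ z ∈ D, x0.1 / 3 ≠ z.1 / 3 := by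
        by_contra hcc
        push Not at hcc
        have hsub : D ⊆ ({⟨0, by omega⟩, ⟨1, by omega⟩, ⟨2, by omega⟩} : Set (Fin n)) := by
          intro w hw
          have h1 := hcc w hw
          simp only [Set.mem_insert_iff, Set.mem_singleton_iff, Fin.ext_iff]
          have : x0.1 = 0 := rfl
          omega
        have h1 := Set.ncard_le_ncard hsub
        have h2 : ({⟨0, by omega⟩, ⟨1, by omega⟩, ⟨2, by omega⟩} : Set (Fin n)).ncard ≤ 3 := by
          refine (Set.ncard_insert_le _ _).trans ?_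
          have := Set.ncard_insert_le (⟨1, by omega⟩ : Fin n) {⟨2, by omega⟩}
          rw [Set.ncard_singleton] at this
          omega
        have h3 : 3 ^ 2 ≤ 3 ^ (k - 1) := Nat.pow_le_pow_right (by norm_num) (by omega)
        omega
      obtain ⟨c, hcQ, hc1, hc2, hc3⟩ := hpart x0
      have hcx : c.1 x0 ∈ D := (hblk c hcQ z hzD (by rw [hc3 z (Ne.symm hz3)]; exact hzD) x0).1 hx0D
      let R : Fin n → Fin n → Prop := fun x y => ∀ σ ∈ Q, σ.1 x ∈ D → σ.1 y ∈ D
      have hRsymm : ∀ x y, R x y → R y x := by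
        intro x y h σ hσ hy
        obtain ⟨τ, hτ, hτx⟩ := htrans x x0
        have h1 : τ.1 y ∈ D := h τ hτ (by rw [hτx]; exact hx0D)
        have h2 := hblk (σ * τ⁻¹) (Q.mul_mem hσ (Q.inv_mem hτ)) (τ.1 y) h1 (by
          have : (σ * τ⁻¹ : alternatingGroup (Fin n)).1 (τ.1 y) = σ.1 y := by
            show σ.1 (τ.1⁻¹ (τ.1 y)) = _
            congr 1
            exact τ.1.symm_apply_apply y
          rw [this]; exact hy) (τ.1 x)
        have h3 : (σ * τ⁻¹ : alternatingGroup (Fin n)).1 (τ.1 x) = σ.1 x := by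
          show σ.1 (τ.1⁻¹ (τ.1 x)) = _
          congr 1
          exact τ.1.symm_apply_apply x
        rw [h3] at h2
        exact h2.1 (by rw [hτx]; exact hx0D)
      have hReq : Equivalence R := ⟨fun x σ _ h => h, fun {x y} h => hRsymm x y h,
        fun {x y z} h1 h2 σ hσ hx => h2 σ hσ (h1 σ hσ hx)⟩
      have hRQ : ∀ σ ∈ Q, ∀ x y, R x y ↔ R (σ.1 x) (σ.1 y) := by
        intro σ hσ x y
        constructor
        · intro h τ hτ hx
          exact h (τ * σ) (Q.mul_mem hτ hσ) hx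
        · intro h τ hτ hx
          have h1 := h (τ * σ⁻¹) (Q.mul_mem hτ (Q.inv_mem hσ)) (by
            show τ.1 (σ.1⁻¹ (σ.1 x)) ∈ D
            have : σ.1⁻¹ (σ.1 x) = x := σ.1.symm_apply_apply x
            rw [this]; exact hx)
          have h2 : (τ * σ⁻¹ : alternatingGroup (Fin n)).1 (σ.1 y) = τ.1 y := by
            show τ.1 (σ.1⁻¹ (σ.1 y)) = _
            congr 1
            exact σ.1.symm_apply_apply y
          rwa [h2] at h1
      have hRD : ∀ y ∈ D, R x0 y := by
        intro y hy σ hσ h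
        exact (hblk σ hσ x0 hx0D h y).1 hy
      refine hcontra R hReq hRQ x0 (c.1 x0) z hc1 hc2 hz3 (hRD _ hcx) (hRD z hzD) ?_
      by_contra hcc
      push Not at hcc
      have h1 : D = Set.univ := by
        rw [Set.eq_univ_iff_forall]
        intro u
        exact hcc u 1 Q.one_mem hx0D
      rw [h1, Set.ncard_univ, Nat.card_eq_fintype_card, Fintype.card_fin, hk] at hDcard
      have := Nat.pow_right_injective (le_refl 2 |>.trans (by norm_num)) hDcard
      omega
    · -- intransitive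
      push Not at htrans
      obtain ⟨x1, y1, h1⟩ := htrans
      by_cases hA : ∃ x : Fin n, ∃ σ ∈ Q, x.1 / 3 ≠ (σ.1 x).1 / 3
      · obtain ⟨x, σ, hσ, hx⟩ := hA
        let R : Fin n → Fin n → Prop := fun x y => ∃ τ ∈ Q, τ.1 x = y
        have hRsymm : ∀ {x y}, R x y → R y x := by
          rintro x y ⟨τ, hτ, rfl⟩
          exact ⟨τ⁻¹, Q.inv_mem hτ, τ.1.symm_apply_apply x⟩
        have hRtrans : ∀ {x y z}, R x y → R y z → R x z := by
          rintro x y z ⟨τ, hτ, rfl⟩ ⟨υ, hυ, rfl⟩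
          exact ⟨υ * τ, Q.mul_mem hυ hτ, rfl⟩
        have hRself : ∀ {τ}, τ ∈ Q → ∀ x, R x (τ.1 x) := fun {τ} hτ x => ⟨τ, hτ, rfl⟩
        have hReq : Equivalence R := ⟨fun x => ⟨1, Q.one_mem, rfl⟩, hRsymm, hRtrans⟩
        obtain ⟨c, hcQ, hc1, hc2, hc3⟩ := hpart x
        refine hcontra R hReq ?_ x (c.1 x) (σ.1 x) hc1 hc2 hx (hRself hcQ x) (hRself hσ x) ?_
        · intro τ hτ a b
          constructor
          · intro h
            exact hRtrans (hRtrans (hRsymm (hRself hτ a)) h) (hRself hτ b)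
          · intro h
            exact hRtrans (hRtrans (hRself hτ a) h) (hRsymm (hRself hτ b))
        · by_contra hcc
          push Not at hcc
          obtain ⟨τ, hτ, h2⟩ := hRtrans (hRsymm (hcc x1)) (hcc y1)
          exact h1 τ hτ h2
      · push Not at hA
        let R : Fin n → Fin n → Prop := fun x y =>
          ((x.1 / 3 = 0 ∨ x.1 / 3 = 1) ↔ (y.1 / 3 = 0 ∨ y.1 / 3 = 1))
        have hReq : Equivalence R := ⟨fun x => Iff.rfl, fun h => h.symm, fun h h' => h.trans h'⟩
        refine hcontra R hReq ?_ ⟨0, by omega⟩ ⟨1, by omega⟩ ⟨3, by omega⟩ ?_ ?_ ?_ ?_ ?_ ?_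
        · intro σ hσ x y
          show _ ↔ (((σ.1 x).1 / 3 = 0 ∨ (σ.1 x).1 / 3 = 1) ↔ ((σ.1 y).1 / 3 = 0 ∨ (σ.1 y).1 / 3 = 1))
          rw [← hA x σ hσ, ← hA y σ hσ]
        · simp [Fin.ext_iff]
        · norm_num
        · norm_num
        · show (((0:ℕ) / 3 = 0 ∨ (0:ℕ) / 3 = 1) ↔ ((1:ℕ) / 3 = 0 ∨ (1:ℕ) / 3 = 1))
          norm_num
        · show (((0:ℕ) / 3 = 0 ∨ (0:ℕ) / 3 = 1) ↔ ((3:ℕ) / 3 = 0 ∨ (3:ℕ) / 3 = 1))
          norm_num
        · refine ⟨⟨6, by omega⟩, ?_⟩
          show ¬ (((0:ℕ) / 3 = 0 ∨ (0:ℕ) / 3 = 1) ↔ ((6:ℕ) / 3 = 0 ∨ (6:ℕ) / 3 = 1))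
          norm_num
  · -- exactly one fixed point
    have hc1 : Nat.card (MulAction.fixedPoints Q (Fin n)) = 1 := by omega
    right; right
    haveI : Nonempty (MulAction.fixedPoints Q (Fin n)) := by
      rw [← Finite.card_pos_iff]; omega
    obtain ⟨⟨a, ha⟩⟩ := ‹Nonempty (MulAction.fixedPoints Q (Fin n))›
    rw [hmemfix] at ha
    obtain ⟨b, hb⟩ := havoid {a} (by simp)
    rw [Finset.mem_singleton] at hb
    have hba : ∀ σ ∈ Q, σ.1 b ≠ a := by
      intro σ hσ h
      apply hb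
      apply σ.1.injective
      rw [h, ha σ hσ]
    -- the orbit of `b`
    by_cases htr : ∀ c : Fin n, c ≠ a → ∃ σ ∈ Q, σ.1 b = c
    · obtain ⟨k, hk⟩ := hQ.card_orbit b
      have horb : MulAction.orbit Q b = {a}ᶜ := by
        ext c
        rw [Set.mem_compl_iff, Set.mem_singleton_iff]
        constructor
        · rintro ⟨⟨σ, hσ⟩, rfl⟩
          exact hba σ hσ
        · intro hc
          obtain ⟨σ, hσ, h⟩ := htr c hc
          exact ⟨⟨σ, hσ⟩, h⟩
      rw [Nat.card_coe_set_eq, horb, Set.ncard_compl, Set.ncard_singleton, Nat.card_eq_fintype_card,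
        Fintype.card_fin] at hk
      refine ⟨k, ?_, by omega⟩
      rcases k with _ | _ | k
      · norm_num at hk; omega
      · norm_num at hk; omega
      · omega
    · exfalso
      push Not at htr
      obtain ⟨c, hca, hc⟩ := htr
      by_cases hfixb : ∀ σ ∈ Q, σ.1 b = b
      · exact htwo a b (Ne.symm hb) ha hfixb
      · push Not at hfixb
        obtain ⟨σ, hσ, hσb⟩ := hfixb
        -- the relation given by the union of the orbit and `a`
        let R : Fin n → Fin n → Prop := fun x y =>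
          ((x = a ∨ ∃ τ ∈ Q, τ.1 b = x) ↔ (y = a ∨ ∃ τ ∈ Q, τ.1 b = y))
        have hS : ∀ τ ∈ Q, ∀ x, (x = a ∨ ∃ υ ∈ Q, υ.1 b = x) ↔ (τ.1 x = a ∨ ∃ υ ∈ Q, υ.1 b = τ.1 x) := by
          intro τ hτ x
          constructor
          · rintro (rfl | ⟨υ, hυ, rfl⟩)
            · left; exact ha τ hτ
            · right; exact ⟨τ * υ, Q.mul_mem hτ hυ, rfl⟩
          · rintro (h | ⟨υ, hυ, h⟩)
            · left
              apply τ.1.injective
              rw [h, ha τ hτ]
            · right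
              refine ⟨τ⁻¹ * υ, Q.mul_mem (Q.inv_mem hτ) hυ, ?_⟩
              show τ.1⁻¹ (υ.1 b) = x
              rw [h]
              exact τ.1.symm_apply_apply x
        have hcS : ¬ (c = a ∨ ∃ υ ∈ Q, υ.1 b = c) := by
          rintro (h | ⟨υ, hυ, h⟩)
          · exact hca h
          · exact hc υ hυ h
        have hab : a ≠ b := Ne.symm hb
        have haσ : a ≠ σ.1 b := Ne.symm (hba σ hσ)
        have hbσ : b ≠ σ.1 b := Ne.symm hσb
        have hL : relStab R ≤ M := by
          apply hU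
          · intro τ hτ x y
            show _ ↔ (_ ↔ _)
            rw [← hS τ hτ x, ← hS τ hτ y]
          · intro htop
            -- a three-cycle moving `a` to `c` and fixing `b`
            obtain ⟨d, hd⟩ := havoid {a, b, c} (by exact Finset.card_le_three.trans (by norm_num))
            simp only [Finset.mem_insert, Finset.mem_singleton, not_or] at hd
            have hcb : c ≠ b := by
              intro h; apply hcS; right; exact ⟨1, Q.one_mem, h.symm⟩
            have h1 : (⟨T a d c, mem_alternatingGroup.2 (T_sign (Ne.symm hd.1) (Ne.symm hca) hd.2.2)⟩ :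
              alternatingGroup (Fin n)) ∈ relStab R := by rw [htop]; trivial
            have h2 := (mem_relStab.1 h1 a b).1 (by
              show _ ↔ _
              exact ⟨fun _ => Or.inr ⟨1, Q.one_mem, rfl⟩, fun _ => Or.inl rfl⟩)
            simp only at h2
            rw [T_a (Ne.symm hd.1) (Ne.symm hca) hd.2.2, T_fix (Ne.symm hab) (Ne.symm hd.2.1) (Ne.symm hcb)] at h2
            exact hcS (h2.2 (Or.inr ⟨1, Q.one_mem, rfl⟩))
        have hT : (⟨T a b (σ.1 b), mem_alternatingGroup.2 (T_sign hab haσ hbσ)⟩ :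
            alternatingGroup (Fin n)) ∈ M := by
          apply hL
          rw [mem_relStab]
          have hRT : ∀ w, (w = a ∨ ∃ υ ∈ Q, υ.1 b = w) ↔
              (T a b (σ.1 b) w = a ∨ ∃ υ ∈ Q, υ.1 b = T a b (σ.1 b) w) := by
            intro w
            by_cases hwa : w = a
            · rw [hwa, T_a hab haσ hbσ]
              exact ⟨fun _ => Or.inr ⟨σ, hσ, rfl⟩, fun _ => Or.inl rfl⟩
            by_cases hwb : w = b
            · rw [hwb, T_b hab haσ hbσ]
              exact ⟨fun _ => Or.inl rfl, fun _ => Or.inr ⟨1, Q.one_mem, rfl⟩⟩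
            by_cases hwc : w = σ.1 b
            · rw [hwc, T_c hab haσ hbσ]
              exact ⟨fun _ => Or.inr ⟨1, Q.one_mem, rfl⟩, fun _ => Or.inr ⟨σ, hσ, rfl⟩⟩
            rw [T_fix hwa hwb hwc]
          intro x y
          show (_ ↔ _) ↔ (_ ↔ _)
          simp only
          rw [← hRT x, ← hRT y]
        have h3 := hfp a ha _ hT
        simp only at h3
        rw [T_a hab haσ hbσ] at h3
        exact haσ h3.symm

end cases

end Cfsg.Agent.H247.ThreeMin
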